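import Cfsg.Agent.H899.TD.DC

/-!
# S3509, `³D₄(q)`, `q = 2 mod 3`: the double cosets, finer form (helper899)
-/

set_option autoImplicit false
set_option linter.unusedSectionVars false
set_option linter.unusedVariables false
set_option maxHeartbeats 400000

namespace Cfsg.Agent.H899.TD

open CoxeterSystem Cfsg.Agent.ChevalleyStructure.CoxeterGeom Cfsg.Agent.Tits.Roots Cfsg.Agent.Tits.Core
  Cfsg.Agent.Tits.Exchange Cfsg.Agent.Nodes.Reps Cfsg.Agent.Nodes.BNOf Cfsg.Agent.Nodes.StabComb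
  Cfsg.Agent.Nodes.Bruhat Cfsg.Agent.Nodes.OppDec Cfsg.Agent.Nodes.LeviDec Cfsg.Agent.Nodes.RGDTwGen
  Cfsg.Agent.Nodes.RGDChev Cfsg.Agent.Nodes.RGDFold Cfsg.Agent.Nodes.RGDFoldSL
open Cfsg.Agent.KFacts.RgdOpp Cfsg.Agent.KFacts.RgdAut Cfsg.Agent.KFacts.RgdDiag Cfsg.Agent.KFacts.RgdRigid
  Cfsg.Agent.KFacts.RgdField Cfsg.Agent.KFacts.RgdTau Cfsg.Agent.KFacts.RgdNodes
open Cfsg.Lie Cfsg.Agent.ChevalleyStructure Cfsg.Agent.ChevalleyStructure.Elts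
open Cfsg.Agent.ChevalleyStructure.SL2Hom (up lo mem_closure_SL2)
open Cfsg.Agent.KFacts.TwDFour.Out
open Cfsg.Agent.Nodes.RGDTwD4 Cfsg.Agent.Nodes.RGDTwNode.D4
open Cfsg.Agent.CpAut.RgdFix Cfsg.Agent.CpAut.RgdConj Cfsg.Agent.CpAut.RgdTwStd Cfsg.Agent.CpAut.RgdTwD4
open Cfsg.Agent.H28.FamFour (st_mul st_one)
open Cfsg.Agent.H866.D4Wf Cfsg.Agent.H866.D4Wf.Frame

variable {K : Type} [Field K] [Fintype K] {q : ℕ} (hK : Fintype.card K = q ^ 3)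
  {φ : K →+* K} (hφ : ∀ x, φ x = x ^ q)

theorem rep_comb {w : CoxeterMatrix.G₂.Group} (h0 : rep cs isCartan w (sr 0) = sr 0)
    (h1 : rep cs isCartan w (sr 1) = ![-1, -1]) (x : Fin 2 → ℤ) : rep cs isCartan w x = ![x 0 - x 1, -x 1] := by
  have e2 : x = x 0 • sr 0 + x 1 • sr 1 := by
    rw [sr0_eq, sr1_eq]
    ext i
    fin_cases i <;> simp
  conv_lhs => rw [e2]
  rw [map_add, map_smul, map_smul, h0, h1, sr0_eq]
  ext i
  fin_cases i <;> simp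
  ring

theorem rep_inv {w : CoxeterMatrix.G₂.Group} (h0 : rep cs isCartan w (sr 0) = sr 0)
    (h1 : rep cs isCartan w (sr 1) = ![-1, -1]) : rep cs isCartan w⁻¹ (sr 0) = sr 0 ∧
      rep cs isCartan w⁻¹ (sr 1) = ![-1, -1] := by
  have hc := rep_comb h0 h1
  constructor
  · conv_lhs => rw [← h0]
    rw [← Module.End.mul_apply, ← map_mul, inv_mul_cancel, map_one, Module.End.one_apply]
  · have h2 : (sr 1 : Fin 2 → ℤ) = rep cs isCartan w ![-1, -1] := by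
      rw [hc, sr1_eq]
      ext i
      fin_cases i <;> simp
    conv_lhs => rw [h2]
    rw [← Module.End.mul_apply, ← map_mul, inv_mul_cancel, map_one, Module.End.one_apply]

include hK hφ

section Conj

variable {r : ℕ} [Fact r.Prime] [CharP K r] {w : CoxeterMatrix.G₂.Group} (h0 : rep cs isCartan w (sr 0) = sr 0)
  (h1 : rep cs isCartan w (sr 1) = ![-1, -1]) {k : ↥(twistedD4 K q)} (hk : Rp cs (rgd' hK hφ r).nsys w k)

include h0 h1 hk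

theorem conj_mem_VN {v : ↥(twistedD4 K q)} (hv : v ∈ VV0 φ q) : k * v * k⁻¹ ∈ VNJ cs isCartan (X φ q) {0} := by
  refine conj_mem_Sup (rgd' hK hφ r) hk (fun x hx => hx.1) (fun x hx => ?_) hv
  obtain ⟨hx1, hx2, j, hj, hxj⟩ := hx
  have hj1 : j = 1 := by
    have : j = 0 ∨ j = 1 := by fin_cases j <;> simp
    rcases this with rfl | rfl
    · exact absurd rfl hj
    · rfl
  subst hj1
  have hxm := root_mem hx1
  have key : ∀ z ∈ rts, 0 < z 1 → z 0 ≤ z 1 := by decide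
  have h5 := key x hxm hxj
  have h6 := rep_comb h0 h1 x
  refine ⟨(hx1.act w).neg, ?_, 1, hj, ?_⟩
  · rw [h6]
    intro j
    fin_cases j
    · show 0 ≤ -(x 0 - x 1)
      omega
    · show 0 ≤ -(-x 1)
      omega
  · rw [h6]
    show 0 < -(-x 1)
    omega

theorem conj_mem_L {l : ↥(twistedD4 K q)} (hl : l ∈ LJ cs isCartan (T K q) (X φ q) {0}) :
    k * l * k⁻¹ ∈ LJ cs isCartan (T K q) (X φ q) {0} := by
  have h2 : LJ cs isCartan (T K q) (X φ q) {0} ≤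
      (LJ cs isCartan (T K q) (X φ q) {0}).comap (MulAut.conj k).toMonoidHom := by
    refine sup_le (fun t ht => ?_) (RGD.Sup_le fun x hx u hu => ?_)
    · exact T_le_LJ ((Subgroup.mem_normalizer_iff.1 hk.mem_normalizer t).1 ht)
    · have h3 := (rgd' hK hφ r).conj_mem hk hx.1 hu
      have h4 : x 1 = 0 := hx.2 1 (by simp)
      have h5 : rep cs isCartan w x = x := by
        rw [rep_comb h0 h1, h4]
        ext j
        fin_cases j <;> simp [h4]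
      rw [h5] at h3
      exact X_le_LJ hx h3
  exact h2 hl

end Conj

variable (hq : IsPrimePow q) (h3 : q % 3 = 2) {A : Matrix.SpecialLinearGroup (Fin 2) (KD φ 0)} (hA : A ^ 3 = 1)
  (hA1 : A ≠ 1) {τ : K ≃+* K} (hτ : τ ^ 3 = 1)

include hq h3 hA hA1 hτ

/-- **the double coset, finer form** -/
theorem exists_dcv (r : ℕ) [Fact r.Prime] [CharP K r] {g : ↥(twistedD4 K q)}
    (hg : PhiD hφ hK 0 A * st q τ g = g * PhiD hφ hK 0 A) :
    g ∈ PP0 φ q ∨ ∃ v ∈ VV0 φ q, PhiD hφ hK 0 A * st q τ v = v * PhiD hφ hK 0 A ∧ ∃ b ∈ PP0 φ q,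
      ∃ (w : CoxeterMatrix.G₂.Group) (k : ↥(twistedD4 K q)),
      Rp cs (rgd' hK hφ r).nsys w k ∧ g = v * k * b ∧ rep cs isCartan w (sr 0) = sr 0 ∧
        rep cs isCartan w (sr 1) = ![-1, -1] := by
  have : Finite CoxeterMatrix.G₂.Group := finiteW cs
  have R := rgd' hK hφ r
  rcases exists_dc hK hφ hq h3 hA hA1 hτ r hg with h | ⟨a, ha, b, hb, w, k, hk, e, h0, h1⟩
  · exact Or.inl h
  right
  obtain ⟨l, hl, v, hv, e1⟩ := (mem_PJ R).1 (inv_mem ha)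
  have hi := rep_inv h0 h1
  obtain ⟨v', hv'⟩ : ∃ v', v' = v⁻¹ := ⟨_, rfl⟩
  obtain ⟨b', hb'⟩ : ∃ b', b' = k⁻¹ * l⁻¹ * k * b := ⟨_, rfl⟩
  have hv'V : v' ∈ VV0 φ q := by rw [hv']; exact inv_mem hv
  have hb'P : b' ∈ PP0 φ q := by
    rw [hb']
    refine mul_mem (LJ_le_PJ ?_) hb
    have := conj_mem_L hK hφ hi.1 hi.2 hk.inv (inv_mem hl)
    rwa [inv_inv] at this
  have e2 : g = v' * k * b' := by
    rw [e, hv', hb', ← inv_inv a, e1]
    group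
  refine ⟨v', hv'V, ?_, b', hb'P, w, k, hk, e2, h0, h1⟩
  -- `x v = v`
  obtain ⟨t, ht⟩ : ∃ t, t = k⁻¹ * st q τ k := ⟨_, rfl⟩
  have htT : t ∈ T K q := by
    rw [ht]
    exact hk.unique (fix_rp R (diag_st hK hφ τ) hk)
  have hst : st q τ k = k * t := by rw [ht]; group
  obtain ⟨c, hc⟩ : ∃ c, c = PhiD hφ hK 0 A := ⟨_, rfl⟩
  have hk0 : ∀ k : Fin 2, k ∉ ({0} : Set (Fin 2)) → (sr 0 : Fin 2 → ℤ) k = 0 := by
    intro k hk
    have h5 : k = 0 ∨ k = 1 := by fin_cases k <;> simp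
    rcases h5 with rfl | rfl
    · exact absurd rfl hk
    · rw [sr0_eq]; rfl
  have hk0' : ∀ k : Fin 2, k ∉ ({0} : Set (Fin 2)) → (-sr 0 : Fin 2 → ℤ) k = 0 := by
    intro k hk
    rw [Pi.neg_apply, hk0 k hk, neg_zero]
  have hcL : c ∈ LJ cs isCartan (T K q) (X φ q) {0} := by
    have h5 : ∀ C : Matrix.SpecialLinearGroup (Fin 2) (KD φ 0), PhiD hφ hK 0 C ∈ LJ cs isCartan (T K q) (X φ q) {0} := by
      intro C
      have h6 : Subgroup.closure (Set.range (up (F := KD φ 0)) ∪ Set.range (lo (F := KD φ 0))) ≤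
          (LJ cs isCartan (T K q) (X φ q) {0}).comap (PhiD hφ hK 0) := by
        rw [Subgroup.closure_le]
        rintro _ (⟨a, rfl⟩ | ⟨a, rfl⟩)
        · exact X_le_LJ (cs := cs) (h := isCartan) (J := {0}) (x := sr 0) ⟨isRoot_sr cs isCartan 0, hk0⟩
            ((mem_X hφ hK 0 _).2 ⟨a, rfl⟩)
        · exact X_le_LJ (cs := cs) (h := isCartan) (J := {0}) (x := -sr 0) ⟨(isRoot_sr cs isCartan 0).neg, hk0'⟩
            ((mem_negX hK hφ 0 _).2 ⟨a, rfl⟩)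
      exact h6 (mem_closure_SL2 C)
    rw [hc]; exact h5 A
  rw [← hc] at hg ⊢
  rw [e2, map_mul, map_mul, hst] at hg
  obtain ⟨y, hy⟩ : ∃ y, y = v'⁻¹ * (c * st q τ v' * c⁻¹) := ⟨_, rfl⟩
  have hyV : y ∈ VV0 φ q := by
    rw [hy]
    refine mul_mem (inv_mem hv'V) ?_
    have h5 : st q τ v' ∈ VV0 φ q := by
      obtain ⟨D⟩ : Nonempty (Diag (T K q) (X φ q) (st q τ) 1) := ⟨diag_st hK hφ τ⟩
      exact (fix_Sup (fun x hx => fixX_st hK hφ τ hx.1) v').2 hv'V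
    exact (Subgroup.mem_normalizer_iff.1 (PJ_le_normalizer_VJ R ({0} : Set (Fin 2)) (LJ_le_PJ hcL)) _).1 h5
  have e3 : k⁻¹ * y * k⁻¹⁻¹ = b' * c * (st q τ b')⁻¹ * t⁻¹ * (k⁻¹ * c⁻¹ * k⁻¹⁻¹) := by
    rw [hy, inv_inv]
    calc k⁻¹ * (v'⁻¹ * (c * st q τ v' * c⁻¹)) * k =
        k⁻¹ * v'⁻¹ * (c * (st q τ v' * (k * t) * st q τ b')) * (st q τ b')⁻¹ * t⁻¹ * k⁻¹ * c⁻¹ * k := by group
      _ = k⁻¹ * v'⁻¹ * (v' * k * b' * c) * (st q τ b')⁻¹ * t⁻¹ * k⁻¹ * c⁻¹ * k := by rw [hg]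
      _ = _ := by group
  have h5 : k⁻¹ * y * k⁻¹⁻¹ ∈ VNJ cs isCartan (X φ q) {0} := conj_mem_VN hK hφ hi.1 hi.2 hk.inv hyV
  have h6 : k⁻¹ * y * k⁻¹⁻¹ ∈ PP0 φ q := by
    rw [e3]
    refine mul_mem (mul_mem (mul_mem (mul_mem hb'P (LJ_le_PJ hcL)) (inv_mem ?_)) ?_) ?_
    · exact (fixP_st hK hφ τ {0} _).2 hb'P
    · exact inv_mem (B_le_PJ (RGD.T_le_B htT))
    · exact LJ_le_PJ (conj_mem_L hK hφ hi.1 hi.2 hk.inv (inv_mem hcL))
  have h7 := eq_one_of_mem_VNJ_of_mem_PJ R h5 h6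
  have h8 : y = 1 := by
    calc y = k * (k⁻¹ * y * k⁻¹⁻¹) * k⁻¹ := by group
      _ = 1 := by rw [h7]; group
  rw [hy] at h8
  have h9 : c * st q τ v' * c⁻¹ = v' := (inv_mul_eq_one.1 h8).symm
  calc c * st q τ v' = c * st q τ v' * c⁻¹ * c := by group
    _ = v' * c := by rw [h9]

end Cfsg.Agent.H899.TD
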