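import Cfsg.Agent.H866.TD.Cls
import Cfsg.Agent.H899.TD.DCV

/-!
# S3509, `³D₄(2)`: the centralizer of an automorphism of type II in the parabolic subgroup (helper899)
-/

set_option autoImplicit false
set_option linter.unusedSectionVars false
set_option linter.unusedVariables false
set_option maxHeartbeats 400000

namespace Cfsg.Agent.H899.TD

open CoxeterSystem Cfsg.Agent.ChevalleyStructure.CoxeterGeom Cfsg.Agent.Tits.Roots Cfsg.Agent.Tits.Core
  Cfsg.Agent.Tits.Exchange Cfsg.Agent.Nodes.Reps Cfsg.Agent.Nodes.BNOf Cfsg.Agent.Nodes.StabComb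
  Cfsg.Agent.Nodes.Bruhat Cfsg.Agent.Nodes.OppDec Cfsg.Agent.Nodes.LeviDec Cfsg.Agent.Nodes.RGDTwGen
  Cfsg.Agent.Nodes.RGDChev Cfsg.Agent.Nodes.RGDFold Cfsg.Agent.Nodes.RGDFoldSL
open Cfsg.Agent.KFacts.RgdOpp Cfsg.Agent.KFacts.RgdAut Cfsg.Agent.KFacts.RgdDiag Cfsg.Agent.KFacts.RgdRigid
  Cfsg.Agent.KFacts.RgdField Cfsg.Agent.KFacts.RgdTau Cfsg.Agent.KFacts.RgdNodes
open Cfsg.Lie Cfsg.Agent.ChevalleyStructure Cfsg.Agent.ChevalleyStructure.Elts
open Cfsg.Agent.ChevalleyStructure.SL2Hom (up lo mem_closure_SL2)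
open Cfsg.Agent.KFacts.TwDFour.Out
open Cfsg.Agent.Nodes.RGDTwD4 Cfsg.Agent.Nodes.RGDTwNode.D4
open Cfsg.Agent.CpAut.RgdFix Cfsg.Agent.CpAut.RgdConj Cfsg.Agent.CpAut.RgdTwStd Cfsg.Agent.CpAut.RgdTwD4
open Cfsg.Agent.H28.FamFour (st_mul st_one)
open Cfsg.Agent.H866.D4Wf Cfsg.Agent.H866.D4Wf.Frame
open Cfsg.Agent.BpExc.FamField (exists_pow_eq forall_pow_iff)

/-! ### `SL₂(2)` -/

theorem key_SL : ∀ A M : Matrix.SpecialLinearGroup (Fin 2) (ZMod 2), A ^ 3 = 1 → A ≠ 1 → M * A = A * M → M ^ 3 = 1 := by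
  decide +kernel

theorem key_SL' : ∀ A : Matrix.SpecialLinearGroup (Fin 2) (ZMod 2), A ^ 3 = 1 → A ≠ 1 →
    A.1 1 0 = 1 ∧ A.1 0 1 = 1 ∧ A.1 0 0 + A.1 1 1 = 1 := by
  decide +kernel

variable {K : Type} [Field K] [Fintype K] (hK : Fintype.card K = 2 ^ 3)
  {φ : K →+* K} (hφ : ∀ x, φ x = x ^ 2)

theorem hq2 : IsPrimePow 2 := Nat.prime_two.isPrimePow

include hK in
theorem char2 : CharP K 2 := by
  obtain ⟨r, hr⟩ := CharP.exists K
  have : Fact r.Prime := ⟨CharP.char_is_prime K r⟩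
  obtain ⟨n, hr', hn⟩ := FiniteField.card K r
  have h1 : r ∣ 2 ^ 3 := by
    rw [← hK, hn]
    exact dvd_pow_self r n.2.ne'
  have h2 := (Nat.prime_dvd_prime_iff_eq hr' Nat.prime_two).1 (hr'.dvd_of_dvd_pow h1)
  rwa [h2] at hr

include hK in
theorem add_self (x : K) : x + x = 0 := by
  have := char2 hK
  exact CharTwo.add_self_eq_zero x

include hφ in
theorem KD_two (x : KD φ 0) : x = 0 ∨ x = 1 := by
  have h1 : φ (x : K) = x := mem_Fx.1 x.2
  rw [hφ] at h1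
  have h2 : (x : K) * ((x : K) - 1) = 0 := by linear_combination h1
  rcases mul_eq_zero.1 h2 with h3 | h3
  · exact Or.inl (Subtype.ext h3)
  · exact Or.inr (Subtype.ext (sub_eq_zero.1 h3))

include hK hφ in
theorem card_KD : Nat.card (KD φ 0) = 2 := card_KD0 hK hφ hq2

include hK hφ in
theorem exists_iso : ∃ ι : KD φ 0 ≃+* ZMod 2, True := by
  classical
  have := Fintype.ofFinite (KD φ 0)
  exact ⟨(ZMod.ringEquivOfPrime (KD φ 0) Nat.prime_two (by rw [← Nat.card_eq_fintype_card, card_KD hK hφ])).symm,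
    trivial⟩

include hK hφ in
theorem SL_comm {A M : Matrix.SpecialLinearGroup (Fin 2) (KD φ 0)} (hA : A ^ 3 = 1) (hA1 : A ≠ 1)
    (h : M * A = A * M) : M ^ 3 = 1 := by
  obtain ⟨ι, -⟩ := exists_iso hK hφ
  obtain ⟨s, hs⟩ : ∃ s, s = Matrix.SpecialLinearGroup.map (n := Fin 2) (ι : KD φ 0 →+* ZMod 2) := ⟨_, rfl⟩
  have hinj : Function.Injective s := by
    intro B C hBC
    apply Subtype.ext
    ext i j
    have h1 : (s B).1 i j = (s C).1 i j := by rw [hBC]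
    rw [hs] at h1
    exact congrArg Subtype.val (ι.injective h1)
  apply hinj
  rw [map_pow, map_one]
  refine key_SL (s A) (s M) (by rw [← map_pow, hA, map_one]) (fun h1 => hA1 (hinj (by rw [h1, map_one]))) ?_
  rw [← map_mul, h, map_mul]

include hK hφ in
theorem SL_entries {A : Matrix.SpecialLinearGroup (Fin 2) (KD φ 0)} (hA : A ^ 3 = 1) (hA1 : A ≠ 1) :
    A.1 1 0 = 1 ∧ A.1 0 1 = 1 ∧ A.1 0 0 + A.1 1 1 = 1 := by
  obtain ⟨ι, -⟩ := exists_iso hK hφ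
  obtain ⟨s, hs⟩ : ∃ s, s = Matrix.SpecialLinearGroup.map (n := Fin 2) (ι : KD φ 0 →+* ZMod 2) := ⟨_, rfl⟩
  have hinj : Function.Injective s := by
    intro B C hBC
    apply Subtype.ext
    ext i j
    have h1 : (s B).1 i j = (s C).1 i j := by rw [hBC]
    rw [hs] at h1
    exact congrArg Subtype.val (ι.injective h1)
  have hent : ∀ i j, (s A).1 i j = ι (A.1 i j) := by
    intro i j
    rw [hs]
    rfl
  obtain ⟨h1, h2, h3⟩ := key_SL' (s A) (by rw [← map_pow, hA, map_one]) (fun h1 => hA1 (hinj (by rw [h1, map_one])))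
  rw [hent] at h1 h2
  rw [hent, hent, ← map_add] at h3
  refine ⟨ι.injective (by rw [h1, map_one]), ι.injective (by rw [h2, map_one]), ι.injective (by rw [h3, map_one])⟩

/-! ### the torus -/

include hK hφ

/-- elements fixed by a field automorphism -/
theorem fix_two {τ : K ≃+* K} (hτ1 : τ ≠ 1) {c : K} (hc : τ c = c) : c = 0 ∨ c = 1 := by
  have := char2 hK
  have hf2 : Fact (Nat.Prime 2) := ⟨Nat.prime_two⟩
  obtain ⟨j, hj⟩ := exists_pow_eq 2 τ
  have h8 : ∀ x : K, x ^ 8 = x := by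
    intro x
    have := FiniteField.pow_card x
    rwa [hK] at this
  have h8m : ∀ (m : ℕ) (x : K), x ^ (8 ^ m) = x := by
    intro m
    induction m with
    | zero => intro x; simp
    | succ m ih => intro x; rw [pow_succ, pow_mul, ih, h8]
  have hs : ∀ x : K, τ x = x ^ 2 ^ (j % 3) := by
    intro x
    rw [hj]
    conv_lhs => rw [← Nat.div_add_mod j 3, pow_add, pow_mul, pow_mul]
    rw [show (2 ^ 3 : ℕ) = 8 by norm_num, h8m]
  have h3 : j % 3 = 0 ∨ j % 3 = 1 ∨ j % 3 = 2 := by omega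
  have hc2 : c ^ 2 = c := by
    rcases h3 with h3 | h3 | h3
    · exfalso
      apply hτ1
      ext x
      rw [hs, h3, pow_zero, pow_one]
      rfl
    · have := hs c
      rw [h3, hc, pow_one] at this
      exact this.symm
    · have h4 := hs c
      rw [h3, hc] at h4
      have h5 : c = c ^ 4 := by
        conv_lhs => rw [h4]
        norm_num
      have h6 : c ^ 8 = c ^ 2 := by
        calc c ^ 8 = (c ^ 4) ^ 2 := by ring
          _ = c ^ 2 := by rw [← h5]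
      rw [← h6, h8]
  have h2 : c * (c - 1) = 0 := by linear_combination hc2
  rcases mul_eq_zero.1 h2 with h3 | h3
  · exact Or.inl h3
  · exact Or.inr (sub_eq_zero.1 h3)

theorem ch_ne {t : ↥(twistedD4 K 2)} (ht : t ∈ T K 2) (i : Fin 2) : chD hφ hK i t ≠ 0 := by
  intro h
  have h1 := act_up hK hφ ht i 1
  rw [h, zero_mul, SLThree.up_zero', map_one] at h1
  have h2 : PhiD hφ hK i (up 1) = 1 := by
    calc PhiD hφ hK i (up 1) = t⁻¹ * (t * PhiD hφ hK i (up 1) * t⁻¹) * t := by group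
      _ = 1 := by rw [h1]; group
  exact (coordD hφ hK i).ne_one one_ne_zero h2

/-- **the field automorphisms have no fixed points on the torus** -/
theorem tor_fix {τ : K ≃+* K} (hτ1 : τ ≠ 1) {t : ↥(twistedD4 K 2)} (ht : t ∈ T K 2) (h : st 2 τ t = t) : t = 1 := by
  have h1 : ∀ i, chD hφ hK i t = 1 := by
    intro i
    have h2 := Cfsg.Agent.H866.TD.ch_st hK hφ ht τ i
    rw [h] at h2
    have h3 : τ (chD hφ hK i t : K) = (chD hφ hK i t : K) := (congrArg Subtype.val h2).symm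
    rcases fix_two hK hφ hτ1 h3 with h4 | h4
    · exact absurd (Subtype.ext h4) (ch_ne hK hφ ht i)
    · exact Subtype.ext h4
  have h2 := conj_eq_one_of_ch hK hφ ht h1
  apply eq_one_of_center hK hφ
  intro g
  have h3 : MulAut.conj t g = g := by rw [h2]; rfl
  rw [MulAut.conj_apply] at h3
  exact mul_inv_eq_iff_eq_mul.1 h3

/-- the torus centralizes the long `SL₂(2)` -/
theorem T_cent {t : ↥(twistedD4 K 2)} (ht : t ∈ T K 2) (M : Matrix.SpecialLinearGroup (Fin 2) (KD φ 0)) :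
    t * PhiD hφ hK 0 M = PhiD hφ hK 0 M * t := by
  have hc : chD hφ hK 0 t = 1 := by
    rcases KD_two hφ (chD hφ hK 0 t) with h | h
    · exact absurd h (ch_ne hK hφ ht 0)
    · exact h
  have h3 : Subgroup.closure (Set.range (up (F := KD φ 0)) ∪ Set.range (lo (F := KD φ 0))) ≤
      ((MulAut.conj t).toMonoidHom.comp (PhiD hφ hK 0)).eqLocus (PhiD hφ hK 0) := by
    rw [Subgroup.closure_le]
    rintro _ (⟨a, rfl⟩ | ⟨a, rfl⟩)
    · show t * PhiD hφ hK 0 (up a) * t⁻¹ = PhiD hφ hK 0 (up a)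
      rw [act_up hK hφ ht, hc, one_mul]
    · show t * PhiD hφ hK 0 (lo a) * t⁻¹ = PhiD hφ hK 0 (lo a)
      obtain ⟨r, hr⟩ := CharP.exists K
      have : Fact r.Prime := ⟨CharP.char_is_prime K r⟩
      have h1 : t * PhiD hφ hK 0 (lo a) * t⁻¹ ∈ X φ 2 (-sr 0) := by
        rw [← (rgd' hK hφ r).tor _ (isRoot_sr cs isCartan 0).neg t ht]
        exact conj_mem_cj.2 ((mem_negX hK hφ 0 _).2 ⟨a, rfl⟩)
      obtain ⟨b, hb⟩ := (mem_negX hK hφ 0 _).1 h1
      have hlo0 : lo (0 : KD φ 0) = 1 := by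
        apply Subtype.ext
        ext i j
        fin_cases i <;> fin_cases j <;> simp [lo]
      have hz : ∀ c : KD φ 0, PhiD hφ hK 0 (lo c) = 1 → c = 0 := by
        intro c hc
        have := (ker_Phi hK hφ 0 hc).1
        simpa [lo] using this
      rw [hb]
      rcases KD_two hφ a with ha | ha <;> rcases KD_two hφ b with hb' | hb'
      · rw [ha, hb']
      · exfalso
        rw [ha, hlo0, map_one, mul_one, mul_inv_cancel, hb'] at hb
        exact one_ne_zero (hz 1 hb.symm)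
      · exfalso
        rw [hb', hlo0, map_one, ha] at hb
        have h4 : PhiD hφ hK 0 (lo 1) = 1 := by
          calc PhiD hφ hK 0 (lo 1) = t⁻¹ * (t * PhiD hφ hK 0 (lo 1) * t⁻¹) * t := by group
            _ = 1 := by rw [hb]; group
        exact one_ne_zero (hz 1 h4)
      · rw [ha, hb']
  have h4 : t * PhiD hφ hK 0 M * t⁻¹ = PhiD hφ hK 0 M := h3 (mem_closure_SL2 M)
  exact mul_inv_eq_iff_eq_mul.1 h4

/-- `Φ₀` is injective -/
theorem Phi_inj {E : Matrix.SpecialLinearGroup (Fin 2) (KD φ 0)} (h : PhiD hφ hK 0 E = 1) : E = 1 := by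
  obtain ⟨h1, h2, h3⟩ := ker_Phi hK hφ 0 h
  have h4 : E.1 0 0 = 1 := by
    rcases KD_two hφ (E.1 0 0) with h5 | h5
    · rw [h5] at h3; simp at h3
    · exact h5
  rw [SLThree.eq_up h4 h1, h2, SLThree.up_zero']

/-- `Φ₀(SL₂) ∩ B` -/
theorem Phi_T {E : Matrix.SpecialLinearGroup (Fin 2) (KD φ 0)} (h : PhiD hφ hK 0 E ∈ T K 2) : E = 1 := by
  obtain ⟨r, hr⟩ := CharP.exists K
  have : Fact r.Prime := ⟨CharP.char_is_prime K r⟩
  have : Finite CoxeterMatrix.G₂.Group := finiteW cs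
  have R := rgd' hK hφ r
  have h10 : E.1 1 0 = 0 := by
    by_contra h0
    have h1 := cell_Phi hK hφ r h0
    have h2 := cell_one_of_mem (hN := (rgd' hK hφ r).nsys) (cs := cs) (h := isCartan) (X := X φ 2) (RGD.T_le_B h)
    have h3 := Cell.unique (rgd' hK hφ r) h2 h1
    have h4 := cs.length_simple 0
    rw [← h3, cs.length_one] at h4
    exact absurd h4 (by norm_num)
  have h00 : E.1 0 0 = 1 := by
    rcases KD_two hφ (E.1 0 0) with h5 | h5
    · have hd := E.2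
      rw [Matrix.det_fin_two, h5, h10] at hd
      simp at hd
    · exact h5
  have hE := SLThree.eq_up h00 h10
  rw [hE] at h
  have h1 : PhiD hφ hK 0 (up (E.1 0 1)) ∈ X φ 2 (sr 0) ⊓ T K 2 := ⟨(mem_X hφ hK 0 _).2 ⟨_, rfl⟩, h⟩
  rw [X_inf_T R (isRoot_sr cs isCartan 0), Subgroup.mem_bot] at h1
  by_cases h2 : E.1 0 1 = 0
  · rw [hE, h2, SLThree.up_zero']
  · exact absurd h1 ((coordD hφ hK 0).ne_one h2)

/-- the long `SL₂` is in the Levi subgroup -/
theorem Phi_mem_L (C : Matrix.SpecialLinearGroup (Fin 2) (KD φ 0)) :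
    PhiD hφ hK 0 C ∈ LJ cs isCartan (T K 2) (X φ 2) {0} := by
  have hk0 : ∀ k : Fin 2, k ∉ ({0} : Set (Fin 2)) → (sr 0 : Fin 2 → ℤ) k = 0 := by
    intro k hk
    have h5 : k = 0 ∨ k = 1 := by fin_cases k <;> simp
    rcases h5 with rfl | rfl
    · exact absurd rfl hk
    · rw [sr0_eq]; rfl
  have hk0' : ∀ k : Fin 2, k ∉ ({0} : Set (Fin 2)) → (-sr 0 : Fin 2 → ℤ) k = 0 := by
    intro k hk
    rw [Pi.neg_apply, hk0 k hk, neg_zero]
  have h6 : Subgroup.closure (Set.range (up (F := KD φ 0)) ∪ Set.range (lo (F := KD φ 0))) ≤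
      (LJ cs isCartan (T K 2) (X φ 2) {0}).comap (PhiD hφ hK 0) := by
    rw [Subgroup.closure_le]
    rintro _ (⟨a, rfl⟩ | ⟨a, rfl⟩)
    · exact X_le_LJ (cs := cs) (h := isCartan) (J := {0}) (x := sr 0) ⟨isRoot_sr cs isCartan 0, hk0⟩
        ((mem_X hφ hK 0 _).2 ⟨a, rfl⟩)
    · exact X_le_LJ (cs := cs) (h := isCartan) (J := {0}) (x := -sr 0) ⟨(isRoot_sr cs isCartan 0).neg, hk0'⟩
        ((mem_negX hK hφ 0 _).2 ⟨a, rfl⟩)
  exact h6 (mem_closure_SL2 C)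

/-- **the centralizer in the parabolic subgroup** -/
theorem exists_GP {A : Matrix.SpecialLinearGroup (Fin 2) (KD φ 0)} {τ : K ≃+* K} (hτ : τ ^ 3 = 1) (hτ1 : τ ≠ 1)
    {g : ↥(twistedD4 K 2)} (hg : PhiD hφ hK 0 A * st 2 τ g = g * PhiD hφ hK 0 A) (hP : g ∈ PP0 φ 2) :
    ∃ (M : Matrix.SpecialLinearGroup (Fin 2) (KD φ 0)), ∃ v ∈ VV0 φ 2, M * A = A * M ∧
      PhiD hφ hK 0 A * st 2 τ v = v * PhiD hφ hK 0 A ∧ g = PhiD hφ hK 0 M * v := by
  obtain ⟨r, hr⟩ := CharP.exists K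
  have : Fact r.Prime := ⟨CharP.char_is_prime K r⟩
  have : Finite CoxeterMatrix.G₂.Group := finiteW cs
  have R := rgd' hK hφ r
  obtain ⟨M, t, ht, v, hv, e⟩ := exists_dec hK hφ hP
  obtain ⟨a, ha⟩ : ∃ a, a = PhiD hφ hK 0 A := ⟨_, rfl⟩
  obtain ⟨m, hm⟩ : ∃ m, m = PhiD hφ hK 0 M := ⟨_, rfl⟩
  have haL : a ∈ LJ cs isCartan (T K 2) (X φ 2) {0} := by rw [ha]; exact Phi_mem_L hK hφ A
  have hmL : m ∈ LJ cs isCartan (T K 2) (X φ 2) {0} := by rw [hm]; exact Phi_mem_L hK hφ M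
  have hstm : st 2 τ m = m := by rw [hm]; exact st_Phi_zero hK hφ hq2 hτ M
  have htT : st 2 τ t ∈ T K 2 := (st_T τ t).2 ht
  have hvV : st 2 τ v ∈ VV0 φ 2 := (fix_Sup (fun x hx => fixX_st hK hφ τ hx.1) v).2 hv
  rw [← hm] at e
  rw [← ha] at hg
  rw [e, map_mul, map_mul, hstm] at hg
  have hN := PJ_le_normalizer_VJ R ({0} : Set (Fin 2))
  have e1 : (m * t * a)⁻¹ * (a * m * st 2 τ t) = (a⁻¹ * v * a⁻¹⁻¹) * (st 2 τ v)⁻¹ := by
    rw [inv_inv]
    calc (m * t * a)⁻¹ * (a * m * st 2 τ t) =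
        a⁻¹ * (m * t)⁻¹ * (a * (m * st 2 τ t * st 2 τ v)) * (st 2 τ v)⁻¹ := by group
      _ = a⁻¹ * (m * t)⁻¹ * (m * t * v * a) * (st 2 τ v)⁻¹ := by rw [hg]
      _ = _ := by group
  have h1 : (m * t * a)⁻¹ * (a * m * st 2 τ t) ∈ LJ cs isCartan (T K 2) (X φ 2) {0} :=
    mul_mem (inv_mem (mul_mem (mul_mem hmL (T_le_LJ ht)) haL)) (mul_mem (mul_mem haL hmL) (T_le_LJ htT))
  have h2 : (m * t * a)⁻¹ * (a * m * st 2 τ t) ∈ VV0 φ 2 := by
    rw [e1]
    exact mul_mem ((Subgroup.mem_normalizer_iff.1 (hN (LJ_le_PJ (inv_mem haL))) _).1 hv) (inv_mem hvV)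
  have h3 := eq_one_of_mem_LJ_of_mem_VJ R h1 h2
  have h4 : m * t * a = a * m * st 2 τ t := inv_mul_eq_one.1 h3
  have h5 : a * st 2 τ v = v * a := by
    rw [h3] at e1
    have h6 : st 2 τ v = a⁻¹ * v * a := by
      have := eq_mul_inv_iff_mul_eq.1 e1
      rw [one_mul, inv_inv] at this
      exact this
    rw [h6]
    group
  have hta : t * a = a * t := by rw [ha]; exact T_cent hK hφ ht A
  have h6 : PhiD hφ hK 0 ((A * M)⁻¹ * (M * A)) = st 2 τ t * t⁻¹ := by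
    rw [map_mul, map_inv, map_mul, map_mul, ← ha, ← hm]
    have h7 : m * a * t = a * m * st 2 τ t := by rw [mul_assoc, ← hta, ← mul_assoc, h4]
    calc (a * m)⁻¹ * (m * a) = (a * m)⁻¹ * (m * a * t) * t⁻¹ := by group
      _ = (a * m)⁻¹ * (a * m * st 2 τ t) * t⁻¹ := by rw [h7]
      _ = _ := by group
  have h7 : (A * M)⁻¹ * (M * A) = 1 := Phi_T hK hφ (by rw [h6]; exact mul_mem htT (inv_mem ht))
  rw [h7, map_one] at h6
  have h8 : st 2 τ t = t := (mul_inv_eq_one.1 h6.symm)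
  have h9 := tor_fix hK hφ hτ1 ht h8
  refine ⟨M, v, hv, (inv_mul_eq_one.1 h7).symm, by rw [← ha]; exact h5, ?_⟩
  rw [e, h9, mul_one, hm]

/-- elements of order prime to three in the centralizer in `P` -/
theorem mem_V_of_pow {A : Matrix.SpecialLinearGroup (Fin 2) (KD φ 0)} (hA : A ^ 3 = 1) (hA1 : A ≠ 1)
    {τ : K ≃+* K} (hτ : τ ^ 3 = 1) (hτ1 : τ ≠ 1)
    {g : ↥(twistedD4 K 2)} (hg : PhiD hφ hK 0 A * st 2 τ g = g * PhiD hφ hK 0 A) (hP : g ∈ PP0 φ 2) {l : ℕ}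
    (hl : Nat.Coprime 3 l) (hgl : g ^ l = 1) : g ∈ VV0 φ 2 := by
  obtain ⟨r, hr⟩ := CharP.exists K
  have : Fact r.Prime := ⟨CharP.char_is_prime K r⟩
  have : Finite CoxeterMatrix.G₂.Group := finiteW cs
  have R := rgd' hK hφ r
  obtain ⟨M, v, hv, hM, hvx, e⟩ := exists_GP hK hφ hτ hτ1 hg hP
  have hM3 := SL_comm hK hφ hA hA1 hM
  have hN := PJ_le_normalizer_VJ R ({0} : Set (Fin 2))
  obtain ⟨m, hm⟩ : ∃ m, m = PhiD hφ hK 0 M := ⟨_, rfl⟩
  have hmL : m ∈ LJ cs isCartan (T K 2) (X φ 2) {0} := by rw [hm]; exact Phi_mem_L hK hφ M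
  rw [← hm] at e
  have hpow : ∀ n : ℕ, ∃ u ∈ VV0 φ 2, g ^ n = m ^ n * u := by
    intro n
    induction n with
    | zero => exact ⟨1, one_mem _, by simp⟩
    | succ n ih =>
      obtain ⟨u, hu, hn⟩ := ih
      refine ⟨(m⁻¹ * u * m⁻¹⁻¹) * v, mul_mem ((Subgroup.mem_normalizer_iff.1
        (hN (LJ_le_PJ (inv_mem hmL))) _).1 hu) hv, ?_⟩
      rw [pow_succ, hn, pow_succ, e, inv_inv]
      group
  obtain ⟨u, hu, hn⟩ := hpow l
  rw [hgl] at hn
  have h1 : m ^ l ∈ VV0 φ 2 := by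
    have : m ^ l = u⁻¹ := eq_inv_of_mul_eq_one_left hn.symm
    rw [this]
    exact inv_mem hu
  have h2 := eq_one_of_mem_LJ_of_mem_VJ R (pow_mem hmL l) h1
  have h3 : m ^ 3 = 1 := by rw [hm, ← map_pow, hM3, map_one]
  have h4 : m = 1 := by
    have h5 : orderOf m ∣ Nat.gcd 3 l := Nat.dvd_gcd (orderOf_dvd_of_pow_eq_one h3) (orderOf_dvd_of_pow_eq_one h2)
    rw [Nat.Coprime.gcd_eq_one hl] at h5
    exact orderOf_eq_one_iff.1 (Nat.dvd_one.1 h5)
  rw [e, h4, one_mul]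
  exact hv

end Cfsg.Agent.H899.TD
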