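import Cfsg.Agent.H893.SR.TriD4U
import Cfsg.Agent.H911.TD.Psi
import Cfsg.Agent.H866.TD.Two
import Cfsg.Agent.H899.TD.PG

/-!
# S3509, `³D₄(2)`: coordinates of the unipotent radical (helper899)
-/

set_option autoImplicit false
set_option linter.unusedSectionVars false
set_option linter.unusedVariables false
set_option maxHeartbeats 400000

namespace Cfsg.Agent.H899.TD

open CoxeterSystem Cfsg.Agent.ChevalleyStructure.CoxeterGeom Cfsg.Agent.Tits.Roots Cfsg.Agent.Tits.Core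
  Cfsg.Agent.Tits.Exchange Cfsg.Agent.Nodes.Reps Cfsg.Agent.Nodes.BNOf Cfsg.Agent.Nodes.StabComb
  Cfsg.Agent.Nodes.Bruhat Cfsg.Agent.Nodes.OppDec Cfsg.Agent.Nodes.LeviDec Cfsg.Agent.Nodes.RGDTwGen
  Cfsg.Agent.Nodes.RGDChev Cfsg.Agent.Nodes.RGDFold Cfsg.Agent.Nodes.RGDFoldSL
open Cfsg.Agent.KFacts.RgdOpp Cfsg.Agent.KFacts.RgdAut Cfsg.Agent.KFacts.RgdDiag Cfsg.Agent.KFacts.RgdRigid
  Cfsg.Agent.KFacts.RgdField Cfsg.Agent.KFacts.RgdTau Cfsg.Agent.KFacts.RgdNodes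
open Cfsg.Lie Cfsg.Agent.ChevalleyStructure
open Cfsg.Agent.ChevalleyStructure.SL2Hom (up lo mem_closure_SL2)
open Cfsg.Agent.KFacts.TwDFour.Out
open Cfsg.Agent.Nodes.RGDTwD4 Cfsg.Agent.Nodes.RGDTwNode.D4
open Cfsg.Agent.CpAut.RgdFix Cfsg.Agent.CpAut.RgdConj Cfsg.Agent.CpAut.RgdTwStd Cfsg.Agent.CpAut.RgdTwD4
open Cfsg.Agent.H28.FamFour (st_mul st_one)
open Cfsg.Agent.ChevStructure.FieldMap (glEquiv)
open Cfsg.Agent.H866.D4Wf Cfsg.Agent.H866.D4Wf.Frame
open Cfsg.Agent.ChevalleyStructure.D4U (RS na elt exists_elt elt_inj crd elt_mem_fix_iff)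
open Cfsg.Agent.ChevalleyStructure.TwistedU (rspan mem_rspan rspan_mono rspan_le lprod lprod_cons lprod_congr exists_lprod)

/-- the roots of the radical -/
def LW : List ℕ := [18, 13, 12, 19, 16, 15, 21, 17, 20, 22, 23]

variable {K : Type} [Field K] [Fintype K] (hK : Fintype.card K = 2 ^ 3)
  {φ : K →+* K} (hφ : ∀ x, φ x = x ^ 2)

theorem rspan_LW {o : List ℕ} (ho : ∀ k ∈ o, k ∈ LW) {y : GL chevD4.Idx K}
    (hy : y ∈ rspan (Elts.xG (F := K) Nodes.RGDTwD4.hp.inList) {k | k ∈ o}) : y ∈ RS K LW := by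
  have h2 : rspan (Elts.xG (F := K) Nodes.RGDTwD4.hp.inList) {k | k ∈ o} ≤
      rspan (D4Comm.xG : ℕ → K → GL chevD4.Idx K) {k | k ∈ LW} := by
    rw [Nodes.RGDTwD4.xG_eq]
    exact rspan_mono _ fun k hk => ho k hk
  exact h2 hy

theorem mem_o1 : ∀ k ∈ [18, 13, 12], k ∈ LW := by decide
theorem mem_o2 : ∀ k ∈ [19, 16, 15], k ∈ LW := by decide
theorem mem_o3 : ∀ k ∈ [21, 20, 17], k ∈ LW := by decide
theorem mem_o4 : ∀ k ∈ [22], k ∈ LW := by decide
theorem mem_o5 : ∀ k ∈ [23], k ∈ LW := by decide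
theorem lt_o1 : ∀ k ∈ [18, 13, 12], k < chevD4.nroots := by decide +kernel
theorem lt_o2 : ∀ k ∈ [19, 16, 15], k < chevD4.nroots := by decide +kernel
theorem lt_o3 : ∀ k ∈ [21, 20, 17], k < chevD4.nroots := by decide +kernel
theorem lt_o4 : ∀ k ∈ [22], k < chevD4.nroots := by decide +kernel
theorem lt_o5 : ∀ k ∈ [23], k < chevD4.nroots := by decide +kernel

theorem key_not : ∀ z ∈ rts, 0 < z 1 → z = ![0, 1] ∨ z = ![1, 1] ∨ z = ![1, 2] ∨ z = ![1, 3] ∨ z = ![2, 3] := by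
  decide

include hK hφ in
theorem VV0_le {y : ↥(twistedD4 K 2)} (hy : y ∈ VV0 φ 2) : (y : GL chevD4.Idx K) ∈ RS K LW := by
  have h1 : VV0 φ 2 ≤ (RS K LW).comap (twistedD4 K 2).subtype := by
    refine RGD.Sup_le fun x hx y hy => ?_
    obtain ⟨hx1, hx2, j, hj, hxj⟩ := hx
    have hj1 : j = 1 := by
      have : j = 0 ∨ j = 1 := by fin_cases j <;> simp
      rcases this with rfl | rfl
      · exact absurd rfl hj
      · rfl
    subst hj1
    rw [Subgroup.mem_comap]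
    rcases key_not x (root_mem hx1) hxj with rfl | rfl | rfl | rfl | rfl
    · exact rspan_LW mem_o1 ((mem_X_iff_rspan hK hφ c_sr1 lt_o1 y).1 hy)
    · exact rspan_LW mem_o2 ((mem_X_iff_rspan hK hφ c_11 lt_o2 y).1 hy)
    · exact rspan_LW mem_o3 ((mem_X_iff_rspan hK hφ H911.TD.c_12 lt_o3 y).1 hy)
    · exact rspan_LW mem_o4 ((mem_X_iff_rspan hK hφ c_del lt_o4 y).1 hy)
    · exact rspan_LW mem_o5 ((mem_X_iff_rspan hK hφ c_the lt_o5 y).1 hy)
  exact h1 hy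

open Cfsg.Agent.H893.SR.Tri (A B C D E Z)

include hK hφ in
theorem phi3' (t : K) : φ (φ (φ t)) = t := Cfsg.Agent.ChevalleyStructure.D4U.phi3 hK hφ t

include hK hφ in
/-- **coordinates of the radical** -/
theorem exists_coord {z : ↥(twistedD4 K 2)} (hz : z ∈ VV0 φ 2) : ∃ b c d e f : K, φ e = e ∧ φ f = f ∧
    (z : GL chevD4.Idx K) = B φ b * C φ c * D φ d * E e * Z f := by
  have h1 : (z : GL chevD4.Idx K) ∈ RS K LW := VV0_le hK hφ hz
  obtain ⟨t, ht⟩ := exists_lprod (x := (D4Comm.xG : ℕ → K → GL chevD4.Idx K)) D4Comm.xG_add (l := LW) (by decide)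
    (D4Pos.good_of_goodB LW (by decide +kernel)) h1
  have hfix := D4Fixed.twisted_le_fix hK hφ z.2
  have hpos : (z : GL chevD4.Idx K) ∈ chevD4.posUnipotent K := by
    rw [D4Pos.posUnipotent_eq_rspan D4Pos.ordA D4Pos.mem_ordA_iff]
    exact rspan_le _ (fun r hr t => mem_rspan _ (S := {k | k ∈ D4Pos.ordA}) (List.mem_cons_of_mem _ hr) t) h1
  obtain ⟨a, b, c, d, e, f, hz'⟩ := exists_elt hpos hfix
  have hK3 : ∀ t : K, φ (φ (φ t)) = t := phi3' hK hφ
  have hfe := (elt_mem_fix_iff hK3 a b c d e f).1 (hz' ▸ hfix)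
  have ha : a = 0 := by
    have h2 : lprod (D4Comm.xG : ℕ → K → GL chevD4.Idx K) D4Pos.ordA (crd φ a b c d e f) =
        lprod D4Comm.xG D4Pos.ordA (Function.update t 14 0) := by
      have h3 : lprod (D4Comm.xG : ℕ → K → GL chevD4.Idx K) D4Pos.ordA (Function.update t 14 0) =
          D4Comm.xG 14 0 * lprod D4Comm.xG LW (Function.update t 14 0) := by
        show lprod D4Comm.xG (14 :: LW) _ = _
        rw [lprod_cons, Function.update_self]
      have h5 : lprod (D4Comm.xG : ℕ → K → GL chevD4.Idx K) D4Pos.ordA (crd φ a b c d e f) = (z : GL chevD4.Idx K) :=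
        hz'.symm
      rw [h3, D4Comm.xG_zero, one_mul, h5, ht]
      refine lprod_congr _ fun r hr => ?_
      rw [Function.update_of_ne]
      rintro rfl
      revert hr
      decide
    have h4 := D4Pos.lprod_inj D4Pos.ordA D4Pos.uniqB_ordA h2 14 (by decide)
    rw [Function.update_self] at h4
    exact h4
  refine ⟨b, c, d, e, f, hfe.2.1, hfe.2.2, ?_⟩
  rw [hz', Cfsg.Agent.H893.SR.Tri.elt_eq2 (add_self hK), ha]
  show D4Comm.xG 14 0 * _ * _ * _ * _ * _ = _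
  rw [D4Comm.xG_zero, one_mul]

theorem glE_xG' (τ : K ≃+* K) (r : ℕ) (t : K) :
    glEquiv chevD4 τ (D4Comm.xG r t : GL chevD4.Idx K) = D4Comm.xG r (τ t) := by
  rw [← Nodes.RGDTwD4.xG_eq]
  exact glE_xG Nodes.RGDTwD4.hp.inList τ r t

include hφ in
/-- **the field automorphisms in coordinates** -/
theorem st_coord (τ : K ≃+* K) {z : ↥(twistedD4 K 2)} {b c d e f : K}
    (hz : (z : GL chevD4.Idx K) = B φ b * C φ c * D φ d * E e * Z f) :
    ((st 2 τ z : ↥(twistedD4 K 2)) : GL chevD4.Idx K) =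
      B φ (τ b) * C φ (τ c) * D φ (τ d) * E (τ e) * Z (τ f) := by
  have h1 : ((st 2 τ z : ↥(twistedD4 K 2)) : GL chevD4.Idx K) = glEquiv chevD4 τ (z : GL chevD4.Idx K) := rfl
  rw [h1, hz]
  simp only [B, C, D, E, Z, map_mul, glE_xG', tau_phi hφ τ]

include hK hφ in
/-- **the elements of order three of the long `SL₂(2)`** -/
theorem coe_PhiA {M : Matrix.SpecialLinearGroup (Fin 2) (KD φ 0)} (hM : M.1 1 0 = 1) :
    ((PhiD hφ hK 0 M : ↥(twistedD4 K 2)) : GL chevD4.Idx K) = A (M.1 0 0 : K) * na K * A (M.1 1 1 : K) := by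
  have h0 : M.1 1 0 ≠ 0 := by rw [hM]; exact one_ne_zero
  have hup : ∀ a : KD φ 0, ((PhiD hφ hK 0 (up a) : ↥(twistedD4 K 2)) : GL chevD4.Idx K) = A (a : K) := by
    intro a
    refine (coe_up (hφ := hφ) hK 0 a).trans ?_
    show Elts.xG hD4 14 (a : K) * 1 = _
    rw [mul_one]
    exact congrFun (congrFun Nodes.RGDTwD4.xG_eq 14) _
  have hm1 : -(1 : KD φ 0) = 1 := by
    apply Subtype.ext
    show -(1 : K) = 1
    exact neg_eq_of_add_eq_zero_left (add_self hK 1)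
  have hS1 : hS (1 : KD φ 0) = 1 := by
    have hl : lo (-1 : KD φ 0) * lo 1 = 1 := by
      apply Subtype.ext
      show (lo (-1 : KD φ 0)).1 * (lo (1 : KD φ 0)).1 = 1
      ext i j
      fin_cases i <;> fin_cases j <;> simp [lo, Matrix.mul_apply, Fin.sum_univ_two]
    have hu : up (1 : KD φ 0) * up (-1) = 1 := by rw [SLThree.up_mul, add_neg_cancel, SLThree.up_zero']
    unfold hS wS
    rw [inv_one, inv_neg_one, neg_neg]
    calc up (1 : KD φ 0) * (lo (-1) * up 1) * (up (-1) * (lo 1 * up (-1))) =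
          up 1 * (lo (-1) * (up 1 * up (-1)) * lo 1) * up (-1) := by group
      _ = 1 := by rw [hu, mul_one, hl, mul_one, hu]
  have e2 : PhiD hφ hK 0 M = PhiD hφ hK 0 (up (M.1 0 0)) * n hφ 0 * PhiD hφ hK 0 (up (M.1 1 1)) := by
    conv_lhs => rw [Cfsg.Agent.KFacts.TwESix.NodeCoord.eq_of_ne_zero h0]
    rw [hM, div_one, div_one, inv_one, hm1, hS1, one_mul, map_mul, map_mul, PhiD_wS]
  rw [e2, Subgroup.coe_mul, Subgroup.coe_mul, hup, hup]
  congr 2
  exact Nodes.RGDTwD4.nI_zero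

end Cfsg.Agent.H899.TD
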