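import Cfsg.Agent.H866.D4Wf.Coset
import Cfsg.Agent.H65.Disp.Rgd

/-!
# S3509, `³D₄(q)`: double cosets of a rank one parabolic subgroup (helper899)
-/

set_option autoImplicit false
set_option linter.unusedSectionVars false

namespace Cfsg.Agent.H899.TD

open CoxeterSystem Cfsg.Agent.ChevalleyStructure.CoxeterGeom Cfsg.Agent.Tits.Roots Cfsg.Agent.Tits.Core
  Cfsg.Agent.Tits.RootComb Cfsg.Agent.Tits.Exchange Cfsg.Agent.Nodes.Reps Cfsg.Agent.Nodes.BNOf
  Cfsg.Agent.Nodes.StabComb Cfsg.Agent.Nodes.Bruhat Cfsg.Agent.Nodes.OppDec Cfsg.Agent.Nodes.LeviDec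
  Cfsg.Agent.Nodes.NormalForm Cfsg.Agent.KFacts.RgdOpp Cfsg.Agent.KFacts.RgdAut Cfsg.Agent.KFacts.RgdDiag
  Cfsg.Agent.KFacts.RgdRigid Cfsg.Agent.CpAut.RgdFix Cfsg.Agent.CpAut.RgdConj
open Cfsg.Agent.H65.Disp Cfsg.Agent.H65.Disp.Rgd

variable {I W Y : Type*} [Fintype I] [DecidableEq I] [Group W] [Group Y] {M : CoxeterMatrix I}
  {cs : CoxeterSystem M W} {A : I → I → ℤ} {h : IsCartan M A} {p : ℕ} {T : Subgroup Y} {n : I → Y}
  {X : (I → ℤ) → Subgroup Y} (R : RGD cs h p T n X)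

include R

theorem exists_min_aux [Finite W] (i : I) : ∀ (N : ℕ) (w : W) (k a b : Y), cs.length w = N → Rp cs R.nsys w k →
    a ∈ PJ cs h T X {i} → b ∈ PJ cs h T X {i} → ∃ a' ∈ PJ cs h T X {i}, ∃ b' ∈ PJ cs h T X {i}, ∃ (w' : W) (k' : Y),
      Rp cs R.nsys w' k' ∧ a * k * b = a' * k' * b' ∧ cs.length w' < cs.length (cs.simple i * w') ∧
        cs.length w' < cs.length (w' * cs.simple i) := by
  intro N
  induction N using Nat.strong_induction_on with
  | _ N ih =>
  intro w k a b hN hk ha hb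
  have hn : n i ∈ PJ cs h T X {i} := LJ_le_PJ (n_mem_LJ R (Set.mem_singleton i))
  by_cases h1 : cs.length w < cs.length (cs.simple i * w)
  · by_cases h2 : cs.length w < cs.length (w * cs.simple i)
    · exact ⟨a, ha, b, hb, w, k, hk, rfl, h1, h2⟩
    · have h3 := cs.length_mul_simple w i
      have hk' : Rp cs R.nsys (w * cs.simple i) (k * (n i)⁻¹) := by
        have := hk.mul (rp_simple cs R.nsys i).inv
        rwa [cs.inv_simple] at this
      obtain ⟨a', ha', b', hb', w', k', h4, h5, h6, h7⟩ := ih _ (by omega) _ (k * (n i)⁻¹) a (n i * b) rfl hk' ha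
        (mul_mem hn hb)
      refine ⟨a', ha', b', hb', w', k', h4, ?_, h6, h7⟩
      rw [← h5]
      group
  · have h3 := cs.length_simple_mul w i
    have hk' : Rp cs R.nsys (cs.simple i * w) ((n i)⁻¹ * k) := by
      have := (rp_simple cs R.nsys i).inv.mul hk
      rwa [cs.inv_simple] at this
    obtain ⟨a', ha', b', hb', w', k', h4, h5, h6, h7⟩ := ih _ (by omega) _ ((n i)⁻¹ * k) (a * n i) b rfl hk'
      (mul_mem ha hn) hb
    refine ⟨a', ha', b', hb', w', k', h4, ?_, h6, h7⟩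
    rw [← h5]
    group

/-- minimal double coset representatives -/
theorem exists_min [Finite W] (hG : GG cs h T X = ⊤) (i : I) (g : Y) : ∃ a ∈ PJ cs h T X {i}, ∃ b ∈ PJ cs h T X {i},
    ∃ (w : W) (k : Y), Rp cs R.nsys w k ∧ g = a * k * b ∧ cs.length w < cs.length (cs.simple i * w) ∧
        cs.length w < cs.length (w * cs.simple i) := by
  obtain ⟨b₁, hb₁, k, hk, b₂, hb₂, e⟩ := del_spec R hG g
  rw [e]
  exact exists_min_aux R i _ _ k b₁ b₂ rfl hk (B_le_PJ hb₁) (B_le_PJ hb₂)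

/-- **commutation of the double coset representative** -/
theorem comm_of_cells [Finite W] {i : I} {β : MulAut Y} (D : Diag T X β 1) (hP : Fix β (PJ cs h T X {i})) {a g : Y}
    (hc : ∀ y ∈ PJ cs h T X {i}, Cell R.nsys cs h X (cs.simple i) (y⁻¹ * a * β y)) (hg : a * β g = g * a)
    {y y' k : Y} {w : W} (hy : y ∈ PJ cs h T X {i}) (hy' : y' ∈ PJ cs h T X {i}) (hk : Rp cs R.nsys w k)
    (e : g = y * k * y') (h1 : cs.length w < cs.length (cs.simple i * w))
    (h2 : cs.length w < cs.length (w * cs.simple i)) : cs.simple i * w = w * cs.simple i := by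
  have e1 : (y⁻¹ * a * β y) * β k = k * (y'⁻¹⁻¹ * a * β y'⁻¹) := by
    rw [e, map_mul, map_mul] at hg
    rw [inv_inv, map_inv]
    calc y⁻¹ * a * β y * β k = y⁻¹ * (a * (β y * β k * β y')) * (β y')⁻¹ := by group
      _ = y⁻¹ * (y * k * y' * a) * (β y')⁻¹ := by rw [hg]
      _ = _ := by group
  have l1 := cs.length_simple_mul w i
  have l2 := cs.length_mul_simple w i
  have c1 := Cell.mul_of_length R (by rw [cs.length_simple]; omega) (hc y hy) (cell_of_rp (fix_rp R D hk))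
  have c2 := Cell.mul_of_length R (by rw [cs.length_simple]; omega) (cell_of_rp (h := h) (X := X) hk) (hc _ (inv_mem hy'))
  rw [e1] at c1
  exact Cell.unique R c1 c2

/-- an element of length zero -/
theorem eq_one_of_rep [Finite W] {w : W} (hw : ∀ i, 0 ≤ rep cs h w (sr i)) : w = 1 := by
  by_contra h1
  obtain ⟨i, hi⟩ := cs.exists_rightDescent_of_ne_one h1
  have h2 := (lt_iff' cs h w i).2 (hw i)
  unfold IsRightDescent at hi
  omega

end Cfsg.Agent.H899.TD
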