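import Cfsg.Agent.H866.D4Wf.Row
import Cfsg.Agent.H899.TD.DCGen

/-!
# S3509, `³D₄(q)`, `q = 2 mod 3`: the double cosets met by the centralizer of an automorphism of type II (helper899)
-/

set_option autoImplicit false
set_option linter.unusedSectionVars false
set_option linter.unusedVariables false
set_option maxHeartbeats 400000

namespace Cfsg.Agent.H899.TD

open CoxeterSystem Cfsg.Agent.ChevalleyStructure.CoxeterGeom Cfsg.Agent.Tits.Roots Cfsg.Agent.Tits.Core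
  Cfsg.Agent.Tits.Exchange Cfsg.Agent.Nodes.Reps Cfsg.Agent.Nodes.BNOf Cfsg.Agent.Nodes.StabComb
  Cfsg.Agent.Nodes.Bruhat Cfsg.Agent.Nodes.OppDec Cfsg.Agent.Nodes.LeviDec Cfsg.Agent.Nodes.RGDTwGen
  Cfsg.Agent.Nodes.RGDChev Cfsg.Agent.Nodes.RGDFold Cfsg.Agent.Nodes.RGDFoldSL
open Cfsg.Agent.KFacts.RgdOpp Cfsg.Agent.KFacts.RgdAut Cfsg.Agent.KFacts.RgdDiag Cfsg.Agent.KFacts.RgdRigid
  Cfsg.Agent.KFacts.RgdField Cfsg.Agent.KFacts.RgdTau Cfsg.Agent.KFacts.RgdNodes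
open Cfsg.Lie Cfsg.Agent.ChevalleyStructure Cfsg.Agent.ChevalleyStructure.Elts
open Cfsg.Agent.ChevalleyStructure.SL2Hom (up lo mem_closure_SL2)
open Cfsg.Agent.KFacts.TwDFour.Out
open Cfsg.Agent.Nodes.RGDTwD4 Cfsg.Agent.Nodes.RGDTwNode.D4
open Cfsg.Agent.CpAut.RgdFix Cfsg.Agent.CpAut.RgdConj Cfsg.Agent.CpAut.RgdTwStd Cfsg.Agent.CpAut.RgdTwD4
open Cfsg.Agent.H65.Disp.Rgd (mem_PJ_perm)
open Cfsg.Agent.H28.FamFour (st_mul st_one)
open scoped commutatorElement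
open Cfsg.Agent.H866.D4Wf Cfsg.Agent.H866.D4Wf.Frame

variable {K : Type} [Field K] [Fintype K] {q : ℕ} (hK : Fintype.card K = q ^ 3)
  {φ : K →+* K} (hφ : ∀ x, φ x = x ^ q)

/-- the parabolic subgroup -/
noncomputable abbrev PP0 (φ : K →+* K) (q : ℕ) : Subgroup ↥(twistedD4 K q) := PJ cs isCartan (T K q) (X φ q) {0}
/-- its unipotent radical -/
noncomputable abbrev VV0 (φ : K →+* K) (q : ℕ) : Subgroup ↥(twistedD4 K q) := VJ cs isCartan (X φ q) {0}
/-- the Borel subgroup -/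
noncomputable abbrev BB (φ : K →+* K) (q : ℕ) : Subgroup ↥(twistedD4 K q) := RGD.B cs isCartan (T K q) (X φ q)

include hK hφ

/-- `P = Φ₀ T V` -/
theorem exists_dec {p : ↥(twistedD4 K q)} (hp : p ∈ PP0 φ q) : ∃ (M : Matrix.SpecialLinearGroup (Fin 2) (KD φ 0)),
    ∃ t ∈ T K q, ∃ v ∈ VV0 φ q, p = PhiD hφ hK 0 M * t * v := by
  obtain ⟨r, hr⟩ := CharP.exists K
  have : Fact r.Prime := ⟨CharP.char_is_prime K r⟩
  have : Finite CoxeterMatrix.G₂.Group := finiteW cs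
  have R := rgd' hK hφ r
  obtain ⟨l, hl, v, hv, e⟩ := (mem_PJ R).1 hp
  have h1 : LJ cs isCartan (T K q) (X φ q) {0} ≤ T K q ⊔ (PhiD hφ hK 0).range := by
    refine sup_le le_sup_left (le_trans (RGD.Sup_le fun x hx => ?_) le_sup_right)
    rcases eq_of_mem_RootsJ R hx with rfl | rfl
    · intro y hy
      obtain ⟨a, rfl⟩ := (mem_X hφ hK 0 y).1 hy
      exact ⟨_, rfl⟩
    · intro y hy
      obtain ⟨a, rfl⟩ := (mem_negX hK hφ 0 y).1 hy
      exact ⟨_, rfl⟩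
  obtain ⟨t, ht, m, hm, e2⟩ := Cfsg.Agent.OddOrderLocal.TypePData.mem_sup_of_le_normalizer (T_le_normalizer hK hφ 0)
    (h1 (inv_mem hl))
  obtain ⟨M, rfl⟩ := hm
  refine ⟨M⁻¹, t⁻¹, inv_mem ht, v, hv, ?_⟩
  rw [e, ← inv_inv l, e2, map_inv]
  group

/-- elements of `SL₂` outside the Borel subgroup -/
theorem cell_Phi (r : ℕ) [Fact r.Prime] [CharP K r] {C : Matrix.SpecialLinearGroup (Fin 2) (KD φ 0)}
    (hC : C.1 1 0 ≠ 0) : Cell (rgd' hK hφ r).nsys cs isCartan (X φ q) (cs.simple 0) (PhiD hφ hK 0 C) := by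
  have R := rgd' hK hφ r
  have hd : -(C.1 1 0)⁻¹ ≠ 0 := neg_ne_zero.2 (inv_ne_zero hC)
  have hT := PhiD_hS hφ hK 0 _ hd
  have hup : ∀ a, PhiD hφ hK 0 (up a) ∈ X φ q (sr 0) := fun a => (mem_X hφ hK 0 _).2 ⟨a, rfl⟩
  have hXB : ∀ a, PhiD hφ hK 0 (up a) ∈ RGD.B cs isCartan (T K q) (X φ q) := fun a =>
    RGD.X_le_B (isRoot_sr cs isCartan 0) (sr_nonneg 0) (hup a)
  rw [Cfsg.Agent.KFacts.TwESix.NodeCoord.eq_of_ne_zero hC, map_mul, map_mul, map_mul, PhiD_wS]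
  have h1 := cell_of_rp (h := isCartan) (X := X φ q) (rp_simple cs (rgd' hK hφ r).nsys 0)
  exact ((h1.mul_left (RGD.T_le_B hT)).mul_left (hXB _)).mul_right (hXB _)

variable (hq : IsPrimePow q) (h3 : q % 3 = 2) {A : Matrix.SpecialLinearGroup (Fin 2) (KD φ 0)} (hA : A ^ 3 = 1)
  (hA1 : A ≠ 1) {τ : K ≃+* K} (hτ : τ ^ 3 = 1)

include hq h3 hA hA1 hτ

theorem cell_twist (r : ℕ) [Fact r.Prime] [CharP K r] {p : ↥(twistedD4 K q)} (hp : p ∈ PP0 φ q) :
    Cell (rgd' hK hφ r).nsys cs isCartan (X φ q) (cs.simple 0) (p⁻¹ * PhiD hφ hK 0 A * st q τ p) := by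
  have : Finite CoxeterMatrix.G₂.Group := finiteW cs
  obtain ⟨M, t, ht, v, hv, rfl⟩ := exists_dec hK hφ hp
  have e : (PhiD hφ hK 0 M * t * v)⁻¹ * PhiD hφ hK 0 A * st q τ (PhiD hφ hK 0 M * t * v) =
      (v⁻¹ * t⁻¹) * PhiD hφ hK 0 (M⁻¹ * A * M) * (st q τ t * st q τ v) := by
    rw [map_mul (st q τ), map_mul (st q τ), st_Phi_zero hK hφ hq hτ, map_mul, map_mul, map_inv]
    group
  rw [e]
  have h1 : (M⁻¹ * A * M) ^ 3 = 1 := by
    have := conj_pow (i := 3) (a := M⁻¹) (b := A)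
    rw [inv_inv] at this
    rw [this, hA]
    group
  have h2 : M⁻¹ * A * M ≠ 1 := by
    intro h
    apply hA1
    calc A = M * (M⁻¹ * A * M) * M⁻¹ := by group
      _ = 1 := by rw [h]; group
  have hVB : VV0 φ q ≤ RGD.B cs isCartan (T K q) (X φ q) := VJ_le_B {0}
  refine ((cell_Phi hK hφ r (ne_zero_three hK hφ hq h3 0 h1 h2)).mul_left ?_).mul_right ?_
  · exact mul_mem (inv_mem (hVB hv)) (inv_mem (RGD.T_le_B ht))
  · exact mul_mem (RGD.T_le_B ((st_T τ _).2 ht)) ((fixB_st hK hφ τ _).2 (hVB hv))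

/-- **the double coset** -/
theorem exists_dc (r : ℕ) [Fact r.Prime] [CharP K r] {g : ↥(twistedD4 K q)}
    (hg : PhiD hφ hK 0 A * st q τ g = g * PhiD hφ hK 0 A) :
    g ∈ PP0 φ q ∨ ∃ a ∈ PP0 φ q, ∃ b ∈ PP0 φ q, ∃ (w : CoxeterMatrix.G₂.Group) (k : ↥(twistedD4 K q)),
      Rp cs (rgd' hK hφ r).nsys w k ∧ g = a * k * b ∧ rep cs isCartan w (sr 0) = sr 0 ∧
        rep cs isCartan w (sr 1) = ![-1, -1] := by
  have : Finite CoxeterMatrix.G₂.Group := finiteW cs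
  have R := rgd' hK hφ r
  obtain ⟨a, ha, b, hb, w, k, hk, e, h1, h2⟩ := exists_min (rgd' hK hφ r) (GG_top hK hφ) 0 g
  have hcom := comm_of_cells (rgd' hK hφ r) (diag_st hK hφ τ) (fixP_st hK hφ τ {0})
    (fun y hy => cell_twist hK hφ hq h3 hA hA1 hτ r hy) hg ha hb hk e h1 h2
  -- the image of the long simple root
  have hpos : 0 ≤ rep cs isCartan w (sr 0) := (lt_iff' cs isCartan w 0).1 h2
  have hy0 : IsRoot cs isCartan (rep cs isCartan w (sr 0)) := (isRoot_sr cs isCartan 0).act w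
  have hs : rep cs isCartan (cs.simple 0) (rep cs isCartan w (sr 0)) = -rep cs isCartan w (sr 0) := by
    have h4 : rep cs isCartan (cs.simple 0 * w) (sr 0) = rep cs isCartan (w * cs.simple 0) (sr 0) := by rw [hcom]
    rw [map_mul, map_mul, Module.End.mul_apply, Module.End.mul_apply, rep_simple_sr, map_neg] at h4
    exact h4
  have hy1 : rep cs isCartan w (sr 0) = sr 0 := by
    obtain ⟨y, hy⟩ : ∃ y, y = rep cs isCartan w (sr 0) := ⟨_, rfl⟩
    rw [← hy] at hpos hy0 hs ⊢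
    have hym := root_mem hy0
    have e2 : y = ![y 0, y 1] := by ext i; fin_cases i <;> rfl
    rw [e2, rep0] at hs
    have h5 := congrFun hs 1
    simp at h5
    have h6 : y 1 = 0 := by omega
    have h7 := hpos 0
    have key : ∀ z ∈ rts, z 1 = 0 → 0 ≤ z 0 → z = ![1, 0] := by decide
    rw [sr0_eq]
    exact key y hym h6 h7
  obtain ⟨z, hz⟩ : ∃ z, z = rep cs isCartan w (sr 1) := ⟨_, rfl⟩
  have hz0 : IsRoot cs isCartan z := by rw [hz]; exact (isRoot_sr cs isCartan 1).act w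
  have hcomb : ∀ c d : ℤ, ![c, d] ∈ rts → c • (![1, 0] : Fin 2 → ℤ) + d • z ∈ rts := by
    intro c d hcd
    have h4 := root_mem ((isRoot_of_mem hcd).act w)
    have e2 : (![c, d] : Fin 2 → ℤ) = c • sr 0 + d • sr 1 := by
      rw [sr0_eq, sr1_eq]
      ext i
      fin_cases i <;> simp
    rw [e2, map_add, map_smul, map_smul, hy1, ← hz, sr0_eq] at h4
    exact h4
  have key : ∀ z ∈ rts, (1 : ℤ) • (![1, 0] : Fin 2 → ℤ) + (1 : ℤ) • z ∈ rts →
      (1 : ℤ) • (![1, 0] : Fin 2 → ℤ) + (2 : ℤ) • z ∈ rts → (1 : ℤ) • (![1, 0] : Fin 2 → ℤ) + (3 : ℤ) • z ∈ rts →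
      z = ![0, 1] ∨ z = ![-1, -1] := by decide
  rcases key z (root_mem hz0) (hcomb 1 1 (by decide)) (hcomb 1 2 (by decide)) (hcomb 1 3 (by decide)) with h4 | h4
  · left
    have hw : w = 1 := by
      apply eq_one_of_rep (rgd' hK hφ r)
      intro i
      have hi : i = 0 ∨ i = 1 := by fin_cases i <;> simp
      rcases hi with rfl | rfl
      · exact hpos
      · rw [← hz, h4]
        intro j
        fin_cases j <;> simp
    subst hw
    rw [e]
    exact mul_mem (mul_mem ha (B_le_PJ (RGD.T_le_B hk.mem_of_one))) hb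
  · right
    exact ⟨a, ha, b, hb, w, k, hk, e, hy1, by rw [← hz, h4]⟩

/-- **elements of the centralizer commuting with an element of the radical** -/
theorem mem_P_of_comm {g u : ↥(twistedD4 K q)} (hg : PhiD hφ hK 0 A * st q τ g = g * PhiD hφ hK 0 A)
    (hu : u ∈ VV0 φ q) (hu1 : u ≠ 1) (hgu : g * u = u * g) : g ∈ PP0 φ q := by
  obtain ⟨r, hr⟩ := CharP.exists K
  have : Fact r.Prime := ⟨CharP.char_is_prime K r⟩
  have : Finite CoxeterMatrix.G₂.Group := finiteW cs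
  rcases exists_dc hK hφ hq h3 hA hA1 hτ r hg with h | ⟨a, ha, b, hb, w, k, hk, e, h0, h1⟩
  · exact h
  exfalso
  have hN := PJ_le_normalizer_VJ (rgd' hK hφ r) ({0} : Set (Fin 2))
  have hub : b * u * b⁻¹ ∈ VV0 φ q := (Subgroup.mem_normalizer_iff.1 (hN hb) _).1 hu
  have hua : a⁻¹ * u * a ∈ VV0 φ q := by
    have := (Subgroup.mem_normalizer_iff.1 (hN (inv_mem ha)) _).1 hu
    rwa [inv_inv] at this
  have e1 : k * (b * u * b⁻¹) * k⁻¹ = a⁻¹ * u * a := by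
    rw [e] at hgu
    calc k * (b * u * b⁻¹) * k⁻¹ = a⁻¹ * (a * k * b * u) * (a * k * b)⁻¹ * a := by group
      _ = a⁻¹ * (u * (a * k * b)) * (a * k * b)⁻¹ * a := by rw [hgu]
      _ = _ := by group
  have h2 : k * (b * u * b⁻¹) * k⁻¹ ∈ UN cs isCartan (X φ q) := by
    refine conj_mem_Sup (rgd' hK hφ r) hk (fun x hx => hx.1) (fun x hx => ?_) hub
    obtain ⟨hx1, hx2, j, hj, hxj⟩ := hx
    have hj1 : j = 1 := by
      have : j = 0 ∨ j = 1 := by fin_cases j <;> simp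
      rcases this with rfl | rfl
      · exact absurd rfl hj
      · rfl
    subst hj1
    have hxm := root_mem hx1
    have e2 : x = x 0 • sr 0 + x 1 • sr 1 := by
      rw [sr0_eq, sr1_eq]
      ext i
      fin_cases i <;> simp
    have e3 : rep cs isCartan w x = ![x 0 - x 1, -x 1] := by
      conv_lhs => rw [e2]
      rw [map_add, map_smul, map_smul, h0, h1, sr0_eq]
      ext i
      fin_cases i <;> simp
      ring
    refine ⟨hx1.act w, ?_⟩
    rw [e3]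
    have key : ∀ z ∈ rts, 0 < z 1 → z 0 ≤ z 1 := by decide
    have h5 := key x hxm hxj
    intro j
    fin_cases j
    · show x 0 - x 1 ≤ 0
      omega
    · show -x 1 ≤ 0
      omega
  rw [e1] at h2
  have h6 : a⁻¹ * u * a ∈ RGD.Sup (X φ q) (RGD.Pos cs isCartan) ⊓ UN cs isCartan (X φ q) := ⟨VJ_le_U {0} hua, h2⟩
  rw [U_inf_UN (rgd' hK hφ r), Subgroup.mem_bot] at h6
  apply hu1
  calc u = a * (a⁻¹ * u * a) * a⁻¹ := by group
    _ = 1 := by rw [h6]; group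

end Cfsg.Agent.H899.TD
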