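import Cfsg.Agent.H899.TD.Coord
import Cfsg.Agent.H899.TD.Kill
import Cfsg.Agent.H866.TD.TwoC
import Cfsg.Agent.H327.TD.Sq
import Cfsg.Agent.H81.TD.FixC
import Cfsg.Agent.H81.TD.Idx
import Cfsg.Agent.S1067

/-!
# S3509, `³D₄(2)`: the centralizer of an automorphism of type II (helper899)
-/

set_option autoImplicit false
set_option linter.unusedSectionVars false
set_option linter.unusedVariables false
set_option maxHeartbeats 400000

namespace Cfsg.Agent.H899.TD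

open CoxeterSystem Cfsg.Agent.ChevalleyStructure.CoxeterGeom Cfsg.Agent.Tits.Roots Cfsg.Agent.Tits.Core
  Cfsg.Agent.Tits.Exchange Cfsg.Agent.Nodes.Reps Cfsg.Agent.Nodes.BNOf Cfsg.Agent.Nodes.StabComb
  Cfsg.Agent.Nodes.Bruhat Cfsg.Agent.Nodes.OppDec Cfsg.Agent.Nodes.LeviDec Cfsg.Agent.Nodes.RGDTwGen
  Cfsg.Agent.Nodes.RGDChev Cfsg.Agent.Nodes.RGDFold Cfsg.Agent.Nodes.RGDFoldSL
open Cfsg.Agent.KFacts.RgdOpp Cfsg.Agent.KFacts.RgdAut Cfsg.Agent.KFacts.RgdDiag Cfsg.Agent.KFacts.RgdRigid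
  Cfsg.Agent.KFacts.RgdField Cfsg.Agent.KFacts.RgdTau Cfsg.Agent.KFacts.RgdNodes
open Cfsg.Lie Cfsg.Agent.ChevalleyStructure
open Cfsg.Agent.ChevalleyStructure.SL2Hom (up lo mem_closure_SL2)
open Cfsg.Agent.KFacts.TwDFour.Out
open Cfsg.Agent.Nodes.RGDTwD4 Cfsg.Agent.Nodes.RGDTwNode.D4
open Cfsg.Agent.CpAut.RgdFix Cfsg.Agent.CpAut.RgdConj Cfsg.Agent.CpAut.RgdTwStd Cfsg.Agent.CpAut.RgdTwD4
open Cfsg.Agent.H28.FamFour (st_mul st_one)
open Cfsg.Agent.H866.D4Wf Cfsg.Agent.H866.D4Wf.Frame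
open Cfsg.Agent.H911.TD (Psi psi_up psi_up_mem psi_up_eq_one psi_comm xo Fxo mem_Fxo xo_apply xo_psi up_iff)
open Cfsg.Agent.ChevalleyStructure.TwistedU (rspan mem_rspan)
open Cfsg.Agent.H866.TD (V2 X12_le X13_le X23_le fix_V2)
open Cfsg.Agent.H65.Disp.Rgd (isPGroup_VJ)

theorem key_u : ∀ A u : Matrix.SpecialLinearGroup (Fin 2) (ZMod 2), u.1 = !![1, 1; 0, 1] → A ^ 3 = 1 → A ≠ 1 →
    A * u * A⁻¹ ≠ u ∧ (u * (A * u * A⁻¹)⁻¹) ^ 3 = 1 := by
  decide +kernel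

variable {K : Type} [Field K] [Fintype K] (hK : Fintype.card K = 2 ^ 3)
  {φ : K →+* K} (hφ : ∀ x, φ x = x ^ 2)

include hK hφ

theorem xo_iff {A : Matrix.SpecialLinearGroup (Fin 2) (KD φ 0)} {τ : K ≃+* K} {z : ↥(twistedD4 K 2)} :
    xo hK hφ A τ z = z ↔ PhiD hφ hK 0 A * st 2 τ z = z * PhiD hφ hK 0 A := by
  rw [xo_apply, mul_inv_eq_iff_eq_mul]

section

open Cfsg.Agent.H893.SR.Tri (B C D E Z B_zero C_zero memD memE memZ)

/-- elements with coordinates in `X_12 X_13 X_23` -/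
theorem mem_V2_of_coord {z : ↥(twistedD4 K 2)} {d e f : K} (he : φ e = e) (hf : φ f = f)
    (hz : (z : GL chevD4.Idx K) = D φ d * E e * Z f) : z ∈ V2 φ 2 := by
  have h2 := add_self hK
  have hK3 := phi3' hK hφ
  have hle := D4Fixed.twisted_le_fix hK hφ
  have h3 : z = (⟨D φ d, memD h2 hK3 hφ hle d⟩ : ↥(twistedD4 K 2)) * ⟨E e, memE h2 hK3 hφ hle he⟩ *
      ⟨Z f, memZ h2 hK3 hφ hle hf⟩ := Subtype.ext hz
  rw [h3]
  refine mul_mem (mul_mem (X12_le ?_) (X13_le ?_)) (X23_le ?_)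
  · rw [mem_X_iff_rspan hK hφ H911.TD.c_12 lt_o3, Nodes.RGDTwD4.xG_eq]
    exact mul_mem (mul_mem (mem_rspan _ (S := {k | k ∈ [21, 20, 17]}) (by simp) _)
      (mem_rspan _ (S := {k | k ∈ [21, 20, 17]}) (by simp) _)) (mem_rspan _ (S := {k | k ∈ [21, 20, 17]}) (by simp) _)
  · rw [mem_X_iff_rspan hK hφ c_del lt_o4, Nodes.RGDTwD4.xG_eq]
    exact mem_rspan _ (S := {k | k ∈ [22]}) (by simp) _
  · rw [mem_X_iff_rspan hK hφ c_the lt_o5, Nodes.RGDTwD4.xG_eq]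
    exact mem_rspan _ (S := {k | k ∈ [23]}) (by simp) _

variable {A : Matrix.SpecialLinearGroup (Fin 2) (KD φ 0)} (hA : A ^ 3 = 1) (hA1 : A ≠ 1)
  {τ : K ≃+* K} (hτ : τ ^ 3 = 1) (hτ1 : τ ≠ 1)

include hA hA1 hτ hτ1

/-- **the involution of `C_V(x₀)`** -/
theorem inv_V {z : ↥(twistedD4 K 2)} (hz : z ∈ VV0 φ 2) (hx : xo hK hφ A τ z = z) (hzz : z * z = 1) (hz1 : z ≠ 1) :
    z = Psi hK hφ (up 1) := by
  have h2 := add_self hK
  have hK3 := phi3' hK hφ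
  obtain ⟨b, c, d, e, f, he, hf, hzc⟩ := exists_coord hK hφ hz
  obtain ⟨h10, -, htr⟩ := SL_entries hK hφ hA hA1
  have hst := st_coord hφ τ hzc
  have hrel := congrArg Subtype.val ((xo_iff hK hφ).1 hx)
  rw [Subgroup.coe_mul, Subgroup.coe_mul, coe_PhiA hK hφ h10, hst, hzc] at hrel
  obtain ⟨α, hα⟩ : ∃ α, α = A.1 0 0 := ⟨_, rfl⟩
  obtain ⟨δ, hδ⟩ : ∃ δ, δ = A.1 1 1 := ⟨_, rfl⟩
  rw [← hα, ← hδ] at hrel htr
  obtain ⟨e1, e2⟩ := Cfsg.Agent.H81.TD.fix_coord h2 (mem_Fx.1 α.2) (mem_Fx.1 δ.2) hrel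
  have hsq := Cfsg.Agent.H327.TD.sq_zero h2 hK3 (b := b) (c := c) (d := d) (e := e) (f := f) (by
    rw [← hzc, ← Subgroup.coe_mul, hzz, Subgroup.coe_one])
  rw [hφ, hφ] at hsq
  have hbc : b = 0 ∧ c = 0 := by
    have h3 : b * c * (b + c) = 0 := by linear_combination hsq
    have hadd : ∀ x : K, x + x = 0 := h2
    rcases KD_two hφ α with ha | ha <;> rcases KD_two hφ δ with hd | hd
    · rw [ha, hd, add_zero] at htr; exact absurd htr zero_ne_one
    · rw [ha] at e2; rw [hd] at e1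
      have e1' : b = τ c + τ b := by
        have h7 := e1
        rw [show ((1 : KD φ 0) : K) = 1 from rfl, one_mul] at h7
        exact h7
      have e2' : c = τ b := by
        have h7 := e2
        rw [show ((0 : KD φ 0) : K) = 0 from rfl, zero_mul, add_zero] at h7
        exact h7
      rcases mul_eq_zero.1 h3 with h4 | h4
      · rcases mul_eq_zero.1 h4 with h5 | h5
        · refine ⟨h5, ?_⟩
          rw [e2', h5, map_zero]
        · have h6 : τ b = 0 := by rw [← e2', h5]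
          exact ⟨(map_eq_zero τ).1 h6, h5⟩
      · have h6 : b = 0 := by rw [e1', ← map_add, add_comm, h4, map_zero]
        refine ⟨h6, ?_⟩
        rw [e2', h6, map_zero]
    · rw [ha] at e2; rw [hd] at e1
      have e1' : b = τ c := by
        have h7 := e1
        rw [show ((0 : KD φ 0) : K) = 0 from rfl, zero_mul, add_zero] at h7
        exact h7
      have e2' : c = τ b + b := by
        have h7 := e2
        rw [show ((1 : KD φ 0) : K) = 1 from rfl, one_mul] at h7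
        exact h7
      rcases mul_eq_zero.1 h3 with h4 | h4
      · rcases mul_eq_zero.1 h4 with h5 | h5
        · refine ⟨h5, ?_⟩
          rw [e2', h5, map_zero, add_zero]
        · refine ⟨?_, h5⟩
          rw [e1', h5, map_zero]
      · have h5 : c = b := by
          have := hadd b
          linear_combination h4 - this
        have h6 : τ b = 0 := by
          rw [h5] at e2'
          linear_combination -e2'
        have h7 : b = 0 := (map_eq_zero τ).1 h6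
        exact ⟨h7, by rw [h5, h7]⟩
    · rw [ha, hd] at htr
      have h5 : (1 : KD φ 0) + 1 = 0 := Subtype.ext (h2 1)
      rw [h5] at htr
      exact absurd htr zero_ne_one
  obtain ⟨rfl, rfl⟩ := hbc
  rw [B_zero, C_zero, one_mul, one_mul] at hzc
  have hV := mem_V2_of_coord hK hφ he hf hzc
  have hAC : ∀ C : Matrix.SpecialLinearGroup (Fin 2) (KD φ 0), (C * A * C⁻¹).1 1 0 ≠ 0 := by
    intro C
    refine ne_zero_three hK hφ hq2 (by norm_num) 0 ?_ ?_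
    · rw [conj_pow, hA, mul_one, mul_inv_cancel]
    · intro h
      apply hA1
      calc A = C⁻¹ * (C * A * C⁻¹) * C := by group
        _ = 1 := by rw [h]; group
  have h12 := fix_V2 hK hφ hq2 hτ hAC hV hx
  obtain ⟨t, ht⟩ := (up_iff hK hφ A hq2 hτ hτ1 z).1 ⟨h12, hx⟩
  rcases KD_two hφ t with h | h
  · exfalso
    apply hz1
    rw [← ht, h, SLThree.up_zero', map_one]
  · rw [← ht, h]

theorem u0_mem : Psi hK hφ (up 1) ∈ VV0 φ 2 := by
  have h0 : (![1, 2] : Fin 2 → ℤ) ∈ NotJ cs isCartan {0} :=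
    ⟨isRoot_of_mem (by decide), fun j => by fin_cases j <;> simp, 1, by simp, by simp⟩
  have h1 : X φ 2 ![1, 2] ≤ VV0 φ 2 := RGD.le_Sup h0
  exact h1 (psi_up_mem hK hφ 1)

theorem u0_ne : Psi hK hφ (up 1) ≠ 1 := fun h => one_ne_zero (psi_up_eq_one hK hφ h)

theorem u0_sq : Psi hK hφ (up 1) * Psi hK hφ (up 1) = 1 := by
  rw [← map_mul, SLThree.up_mul, show (1 : KD φ 0) + 1 = 0 from Subtype.ext (add_self hK 1), SLThree.up_zero', map_one]

/-- elements of the centralizer of `u₀` and `x₀` of order prime to three -/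
theorem mem_V_of_comm {z : ↥(twistedD4 K 2)} (hx : xo hK hφ A τ z = z)
    (hc : z * Psi hK hφ (up 1) = Psi hK hφ (up 1) * z) {l : ℕ} (hl : Nat.Coprime 3 l) (hzl : z ^ l = 1) :
    z ∈ VV0 φ 2 :=
  mem_V_of_pow hK hφ hA hA1 hτ hτ1 ((xo_iff hK hφ).1 hx)
    (mem_P_of_comm hK hφ hq2 (by norm_num) hA hA1 hτ ((xo_iff hK hφ).1 hx) (u0_mem hK hφ hA hA1 hτ hτ1)
      (u0_ne hK hφ hA hA1 hτ hτ1) hc) hl hzl

theorem eq_one_of_V {z : ↥(twistedD4 K 2)} (hz : z ∈ VV0 φ 2) {l : ℕ} (hl : l.Prime) (h2 : l ≠ 2) (hzl : z ^ l = 1) :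
    z = 1 := by
  have := char2 hK
  have hf2 : Fact (Nat.Prime 2) := ⟨Nat.prime_two⟩
  have : Finite CoxeterMatrix.G₂.Group := finiteW cs
  obtain ⟨k, hk⟩ := isPGroup_VJ (rgd' hK hφ 2) ({0} : Set (Fin 2)) ⟨z, hz⟩
  have hk' : z ^ 2 ^ k = 1 := congrArg Subtype.val hk
  have h3 : orderOf z ∣ Nat.gcd (2 ^ k) l := Nat.dvd_gcd (orderOf_dvd_of_pow_eq_one hk') (orderOf_dvd_of_pow_eq_one hzl)
  have h4 : Nat.Coprime (2 ^ k) l := Nat.Coprime.pow_left _ ((Nat.coprime_primes Nat.prime_two hl).2 (Ne.symm h2))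
  rw [Nat.Coprime.gcd_eq_one h4] at h3
  exact orderOf_eq_one_iff.1 (Nat.dvd_one.1 h3)

/-- **involutions of the centralizer** -/
theorem unique_inv (z : ↥(twistedD4 K 2)) (hx : xo hK hφ A τ z = z)
    (hc : z * Psi hK hφ (up 1) = Psi hK hφ (up 1) * z) (hzz : z * z = 1) (hz1 : z ≠ 1) : z = Psi hK hφ (up 1) :=
  inv_V hK hφ hA hA1 hτ hτ1 (mem_V_of_comm hK hφ hA hA1 hτ hτ1 hx hc (l := 2) (by norm_num)
    (by rw [pow_two]; exact hzz)) hx hzz hz1

theorem odd_one (z : ↥(twistedD4 K 2)) (hx : xo hK hφ A τ z = z)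
    (hc : z * Psi hK hφ (up 1) = Psi hK hφ (up 1) * z) (l : ℕ) (hl : l.Prime) (h2 : l ≠ 2) (h3 : l ≠ 3)
    (hzl : z ^ l = 1) : z = 1 :=
  eq_one_of_V hK hφ hA hA1 hτ hτ1 (mem_V_of_comm hK hφ hA hA1 hτ hτ1 hx hc
    ((Nat.coprime_primes Nat.prime_three hl).2 (Ne.symm h3)) hzl) hl h2 hzl

theorem n0_facts : xo hK hφ A τ (PhiD hφ hK 0 (up 1)) ≠ PhiD hφ hK 0 (up 1) ∧
    (PhiD hφ hK 0 (up 1) * (xo hK hφ A τ (PhiD hφ hK 0 (up 1)))⁻¹) ^ 3 = 1 := by
  obtain ⟨ι, -⟩ := exists_iso hK hφ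
  obtain ⟨s, hs⟩ : ∃ s, s = Matrix.SpecialLinearGroup.map (n := Fin 2) (ι : KD φ 0 →+* ZMod 2) := ⟨_, rfl⟩
  have hinj : Function.Injective s := by
    intro B C hBC
    apply Subtype.ext
    ext i j
    have h1 : (s B).1 i j = (s C).1 i j := by rw [hBC]
    rw [hs] at h1
    exact congrArg Subtype.val (ι.injective h1)
  have hsu : (s (up 1)).1 = !![1, 1; 0, 1] := by
    rw [hs]
    ext i j
    show ι ((up (1 : KD φ 0)).1 i j) = _
    fin_cases i <;> fin_cases j <;> simp [up]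
  obtain ⟨h1, h2⟩ := key_u (s A) (s (up 1)) hsu (by rw [← map_pow, hA, map_one])
    (fun h1 => hA1 (hinj (by rw [h1, map_one])))
  have hx : xo hK hφ A τ (PhiD hφ hK 0 (up 1)) = PhiD hφ hK 0 (A * up 1 * A⁻¹) := by
    rw [xo_apply, st_Phi_zero hK hφ hq2 hτ, map_mul, map_mul, map_inv]
  rw [hx]
  constructor
  · intro h
    apply h1
    rw [← map_inv, ← map_mul, ← map_mul]
    congr 1
    have h3 : PhiD hφ hK 0 (A * up 1 * A⁻¹ * (up 1)⁻¹) = 1 := by rw [map_mul, h, map_inv, mul_inv_cancel]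
    exact mul_inv_eq_one.1 (Phi_inj hK hφ h3)
  · rw [← map_inv, ← map_mul, ← map_pow]
    have h3 : (up (1 : KD φ 0) * (A * up 1 * A⁻¹)⁻¹) ^ 3 = 1 := by
      apply hinj
      rw [map_pow, map_mul, map_inv, map_mul, map_mul, map_inv, h2, map_one]
    rw [h3, map_one]

/-- **the primes of the centralizer** -/
theorem prime_one {z : ↥(twistedD4 K 2)} (hx : xo hK hφ A τ z = z) {l : ℕ} (hl : l.Prime) (h5 : 5 ≤ l)
    (hzl : z ^ l = 1) : z = 1 := by
  have := char2 hK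
  have hf2 : Fact (Nat.Prime 2) := ⟨Nat.prime_two⟩
  have : Finite CoxeterMatrix.G₂.Group := finiteW cs
  have R := rgd' hK hφ 2
  obtain ⟨F, hF⟩ : ∃ F, F = Fxo hK hφ A τ := ⟨_, rfl⟩
  have hFm : ∀ y, y ∈ F ↔ xo hK hφ A τ y = y := by
    intro y; rw [hF]; exact Iff.rfl
  have hu0 : Psi hK hφ (up 1) ∈ F := (hFm _).2 (xo_psi hK hφ A hq2 hτ _)
  have hPV : VV0 φ 2 ≤ PP0 φ 2 := VJ_le_PJ
  have hinvP : ∀ y, y ∈ F → y ∈ PP0 φ 2 → y * y = 1 → y ≠ 1 → y = Psi hK hφ (up 1) := by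
    intro y hy hP hyy hy1
    have h1 := mem_V_of_pow hK hφ hA hA1 hτ hτ1 ((xo_iff hK hφ).1 ((hFm _).1 hy)) hP (l := 2) (by norm_num)
      (by rw [pow_two]; exact hyy)
    exact inv_V hK hφ hA hA1 hτ hτ1 h1 ((hFm _).1 hy) hyy hy1
  have key := Cfsg.Agent.H81.TD.no_prime (F := F) ((PP0 φ 2).subgroupOf F) ((VV0 φ 2).subgroupOf F)
    (fun y hy => Subgroup.mem_subgroupOf.2 (hPV (Subgroup.mem_subgroupOf.1 hy)))
    ((isPGroup_VJ R ({0} : Set (Fin 2))).comap_subtype) (u₀ := ⟨_, hu0⟩)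
    (by
      rintro ⟨y, hy⟩ hyV hyy hy1
      exact Subtype.ext (hinvP y hy (hPV (Subgroup.mem_subgroupOf.1 hyV)) (congrArg Subtype.val hyy)
        fun h => hy1 (Subtype.ext h)))
    (by
      rintro ⟨h, hh⟩ hm
      have h1 : h⁻¹ * Psi hK hφ (up 1) * h ∈ PP0 φ 2 := Subgroup.mem_subgroupOf.1 hm
      have h2 : h⁻¹ * Psi hK hφ (up 1) * h = Psi hK hφ (up 1) := by
        refine hinvP _ (mul_mem (mul_mem (inv_mem hh) hu0) hh) h1 ?_ ?_
        · calc h⁻¹ * Psi hK hφ (up 1) * h * (h⁻¹ * Psi hK hφ (up 1) * h) =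
              h⁻¹ * (Psi hK hφ (up 1) * Psi hK hφ (up 1)) * h := by group
            _ = 1 := by rw [u0_sq hK hφ hA hA1 hτ hτ1]; group
        · intro h3
          apply u0_ne hK hφ hA hA1 hτ hτ1
          calc Psi hK hφ (up 1) = h * (h⁻¹ * Psi hK hφ (up 1) * h) * h⁻¹ := by group
            _ = 1 := by rw [h3]; group
      refine Subgroup.mem_subgroupOf.2 (mem_P_of_comm hK hφ hq2 (by norm_num) hA hA1 hτ
        ((xo_iff hK hφ).1 ((hFm _).1 hh)) (u0_mem hK hφ hA hA1 hτ hτ1) (u0_ne hK hφ hA hA1 hτ hτ1) ?_)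
      calc h * Psi hK hφ (up 1) = h * (h⁻¹ * Psi hK hφ (up 1) * h) := by rw [h2]
        _ = _ := by group)
    (by
      rintro ⟨g, hg⟩ ⟨h, hh⟩ hgP hhP
      rcases exists_dcv hK hφ hq2 (by norm_num) hA hA1 hτ 2 ((xo_iff hK hφ).1 ((hFm _).1 hg)) with
        h1 | ⟨v, hv, hvx, b, hb, w, k, hk, e, hr0, hr1⟩
      · exact absurd (Subgroup.mem_subgroupOf.2 h1) hgP
      rcases exists_dcv hK hφ hq2 (by norm_num) hA hA1 hτ 2 ((xo_iff hK hφ).1 ((hFm _).1 hh)) with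
        h1 | ⟨v', hv', hvx', b', hb', w', k', hk', e', hr0', hr1'⟩
      · exact absurd (Subgroup.mem_subgroupOf.2 h1) hhP
      have hww : w'⁻¹ * w = 1 := by
        apply eq_one_of_rep R
        have h3 : ∀ i, rep cs isCartan (w'⁻¹ * w) (sr i) = sr i := by
          intro i
          have h4 : rep cs isCartan w (sr i) = rep cs isCartan w' (sr i) := by
            rw [rep_comb hr0 hr1, rep_comb hr0' hr1']
          rw [map_mul, Module.End.mul_apply, h4, ← Module.End.mul_apply, ← map_mul, inv_mul_cancel, map_one,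
            Module.End.one_apply]
        intro i
        rw [h3]
        exact sr_nonneg i
      have hkk : k'⁻¹ * k ∈ T K 2 := by
        have h3 := hk'.inv.mul hk
        rw [hww] at h3
        exact h3.mem_of_one
      have hvF : v ∈ F := (hFm _).2 ((xo_iff hK hφ).2 hvx)
      have hvF' : v' ∈ F := (hFm _).2 ((xo_iff hK hφ).2 hvx')
      refine ⟨⟨v * v'⁻¹, mul_mem hvF (inv_mem hvF')⟩, Subgroup.mem_subgroupOf.2 (mul_mem hv (inv_mem hv')), ?_⟩
      refine Subgroup.mem_subgroupOf.2 ?_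
      show (v * v'⁻¹ * h)⁻¹ * g ∈ PP0 φ 2
      have h5 : (v * v'⁻¹ * h)⁻¹ * g = b'⁻¹ * (k'⁻¹ * k) * b := by
        rw [e, e']
        group
      rw [h5]
      exact mul_mem (mul_mem (inv_mem hb') (B_le_PJ (RGD.T_le_B hkk))) hb)
    (by
      have h1 : Nat.card ↥(twistedD4 K 2) = 211341312 := by
        rw [Cfsg.Agent.S1067.result hq2 hK]
        norm_num
      rw [← h1]
      exact Subgroup.card_subgroup_dvd_card F)
    hl h5
    (by
      rintro ⟨c, hc⟩ hcP hcl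
      have h1 := mem_V_of_pow hK hφ hA hA1 hτ hτ1 ((xo_iff hK hφ).1 ((hFm _).1 hc)) (Subgroup.mem_subgroupOf.1 hcP)
        (l := l) ((Nat.coprime_primes Nat.prime_three hl).2 (by omega)) (congrArg Subtype.val hcl)
      exact Subtype.ext (eq_one_of_V hK hφ hA hA1 hτ hτ1 h1 hl (by omega) (congrArg Subtype.val hcl)))
    (z := ⟨z, (hFm _).2 hx⟩) (Subtype.ext hzl)
  exact congrArg Subtype.val key

end

end Cfsg.Agent.H899.TD
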